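import Mathlib

/-!
# Fixed points of the Levi action

A matrix `X` with characteristic polynomial `(T - κ) p`, `p` irreducible of degree at least two and not dividing its
reverse: it fixes no nonzero alternating matrix under `A ↦ X A Xᵀ`, and if `κ ≠ 1` no nonzero vector.
-/

set_option autoImplicit false

open Polynomial Matrix

namespace Cfsg.Agent.Lib.OreOmega

variable {F : Type*} [Field F] {m : ℕ}

/-- Alternating matrices. -/
def IsAltM (A : Matrix (Fin m) (Fin m) F) : Prop := ∀ y : Fin m → F, (A *ᵥ y) ⬝ᵥ y = 0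

theorem IsAltM.diag {A : Matrix (Fin m) (Fin m) F} (h : IsAltM A) (i : Fin m) : A i i = 0 := by
  have := h (Pi.single i 1)
  simpa [dotProduct_single] using this

theorem IsAltM.skew {A : Matrix (Fin m) (Fin m) F} (h : IsAltM A) (i j : Fin m) : A i j = - A j i := by
  by_cases hij : i = j
  · subst hij
    rw [h.diag]
    simp
  have h1 := h (Pi.single i 1 + Pi.single j 1)
  have e : ∀ k l, (A *ᵥ Pi.single k 1) ⬝ᵥ Pi.single l 1 = A l k := by
    intro k l
    simp [dotProduct_single, mulVec_single]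
  rw [mulVec_add, add_dotProduct, dotProduct_add, dotProduct_add, e, e, e, e, h.diag, h.diag] at h1
  linear_combination h1

/-- Alternating from the entries. -/
theorem isAltM_of_entries {A : Matrix (Fin m) (Fin m) F} (hd : ∀ i, A i i = 0) (hs : ∀ i j, A i j = - A j i) :
    IsAltM A := by
  intro y
  classical
  have h1 : (A *ᵥ y) ⬝ᵥ y = ∑ i, ∑ j, A i j * y j * y i := by
    simp [dotProduct, mulVec, Finset.sum_mul]
  rw [h1]
  have h2 : ∑ i, ∑ j, A i j * y j * y i = - ∑ i, ∑ j, A i j * y j * y i := by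
    conv_lhs => rw [Finset.sum_comm]
    rw [← Finset.sum_neg_distrib]
    refine Finset.sum_congr rfl fun i _ => ?_
    rw [← Finset.sum_neg_distrib]
    refine Finset.sum_congr rfl fun j _ => ?_
    rw [hs j i]
    ring
  -- a direct pairing argument, valid in every characteristic
  have h3 : ∀ s : Finset (Fin m), ∑ i ∈ s, ∑ j ∈ s, A i j * y j * y i = 0 := by
    intro s
    induction s using Finset.induction_on with
    | empty => simp
    | insert a s ha ih =>
      rw [Finset.sum_insert ha, Finset.sum_insert ha]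
      have h4 : ∀ i ∈ s, ∑ j ∈ insert a s, A i j * y j * y i = A i a * y a * y i + ∑ j ∈ s, A i j * y j * y i := by
        intro i _
        rw [Finset.sum_insert ha]
      rw [Finset.sum_congr rfl h4, Finset.sum_add_distrib, ih, add_zero, hd, zero_mul, zero_mul, zero_add,
        ← Finset.sum_add_distrib]
      refine Finset.sum_eq_zero fun i _ => ?_
      rw [hs i a]
      ring
  exact h3 Finset.univ

section Main

variable {p : F[X]} {κ : F}

theorem noRoot_of_irreducible (hirr : Irreducible p) (hdeg : 2 ≤ p.natDegree) (a : F) : p.eval a ≠ 0 := by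
  intro h
  have h1 := Polynomial.degree_eq_one_of_irreducible_of_root hirr h
  have h2 : p.natDegree = 1 := natDegree_eq_of_degree_eq_some h1
  omega

/-- A left inverse of the reverse. -/
theorem exists_inv_reverse (X : Matrix (Fin m) (Fin m) F) (hX : X.charpoly = (Polynomial.X - C κ) * p)
    (hirr : Irreducible p) (hdeg : 2 ≤ p.natDegree) (hκ0 : κ ≠ 0) (hrev : ¬ p ∣ p.reverse) :
    ∃ Z, aeval X p.reverse * Z = 1 := by
  have h1 : IsCoprime p p.reverse := (hirr.coprime_iff_not_dvd).2 hrev
  have h2 : IsCoprime (Polynomial.X - C κ : F[X]) p.reverse := by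
    refine ((irreducible_X_sub_C κ).coprime_iff_not_dvd).2 ?_
    rw [dvd_iff_isRoot, IsRoot.def]
    intro h0
    haveI : Invertible (κ⁻¹ : F) := invertibleOfNonzero (inv_ne_zero hκ0)
    have h3 := (eval₂_reverse_eq_zero_iff (RingHom.id F) (κ⁻¹) p).1
    have h4 : ⅟(κ⁻¹) = κ := by rw [invOf_eq_inv, inv_inv]
    rw [h4] at h3
    have h5 := h3 (by rwa [eval₂_id])
    rw [eval₂_id] at h5
    exact noRoot_of_irreducible hirr hdeg _ h5
  have h3 : IsCoprime ((Polynomial.X - C κ) * p) p.reverse := IsCoprime.mul_left h2 h1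
  obtain ⟨a, b, hab⟩ := h3
  refine ⟨aeval X b, ?_⟩
  have h4 := congrArg (aeval X) hab
  have hf : aeval X ((Polynomial.X - C κ) * p) = 0 := by
    rw [← hX]
    exact Matrix.aeval_self_charpoly X
  rw [map_add, map_mul, hf, mul_zero, zero_add, map_mul, map_one] at h4
  rw [← h4, ← map_mul, ← map_mul, mul_comm]

/-- The basic polynomial identity. -/
theorem aeval_mul_eq (X A : Matrix (Fin m) (Fin m) F) (hfix : X * A * Xᵀ = A) (p : F[X]) :
    aeval X p * A * (Xᵀ) ^ p.natDegree = A * aeval (Xᵀ) p.reverse := by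
  have hk : ∀ k : ℕ, X ^ k * A * (Xᵀ) ^ k = A := by
    intro k
    induction k with
    | zero => simp
    | succ k ih =>
      rw [pow_succ', pow_succ]
      calc X * X ^ k * A * ((Xᵀ) ^ k * Xᵀ) = X * (X ^ k * A * (Xᵀ) ^ k) * Xᵀ := by
            simp only [mul_assoc]
        _ = A := by rw [ih, hfix]
  set d := p.natDegree with hd
  rw [aeval_eq_sum_range, aeval_eq_sum_range' (n := d + 1) (Nat.lt_succ_of_le (reverse_natDegree_le p))]
  rw [Finset.sum_mul, Finset.sum_mul, Finset.mul_sum]
  rw [← Finset.sum_range_reflect]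
  refine Finset.sum_congr rfl fun j hj => ?_
  have hj' : j ≤ d := by
    have := Finset.mem_range.1 hj
    omega
  have h1 : d + 1 - 1 - j = d - j := by omega
  rw [h1]
  have h2 : p.reverse.coeff j = p.coeff (d - j) := by
    rw [coeff_reverse, ← hd, revAt_le (by omega)]
  rw [h2, smul_mul_assoc, smul_mul_assoc, mul_smul_comm]
  congr 1
  have h3 : (Xᵀ) ^ d = (Xᵀ) ^ (d - j) * (Xᵀ) ^ j := by
    rw [← pow_add]
    congr 1
    omega
  calc X ^ (d - j) * A * (Xᵀ) ^ d = (X ^ (d - j) * A * (Xᵀ) ^ (d - j)) * (Xᵀ) ^ j := by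
        rw [h3]
        simp only [mul_assoc]
    _ = _ := by rw [hk]

/-- The main fixed point statement. -/
theorem alt_fix_zero (X A : Matrix (Fin m) (Fin m) F) (hX : X.charpoly = (Polynomial.X - C κ) * p)
    (hirr : Irreducible p) (hdeg : 2 ≤ p.natDegree) (hκ0 : κ ≠ 0) (hrev : ¬ p ∣ p.reverse)
    (hA : IsAltM A) (hfix : X * A * Xᵀ = A) : A = 0 := by
  classical
  have hXT : (Xᵀ).charpoly = (Polynomial.X - C κ) * p := by rw [Matrix.charpoly_transpose, hX]
  obtain ⟨Z, hZ⟩ := exists_inv_reverse (Xᵀ) hXT hirr hdeg hκ0 hrev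
  have hf : (X - algebraMap F _ κ) * aeval X p = 0 := by
    have h1 : aeval X ((Polynomial.X - C κ) * p) = 0 := by
      rw [← hX]
      exact Matrix.aeval_self_charpoly X
    rw [map_mul, map_sub, aeval_X, aeval_C] at h1
    exact h1
  have hkey := aeval_mul_eq X A hfix p
  have hEA : (X - algebraMap F _ κ) * A = 0 := by
    calc (X - algebraMap F _ κ) * A = (X - algebraMap F _ κ) * A * (aeval (Xᵀ) p.reverse * Z) := by
          rw [hZ, mul_one]
      _ = (X - algebraMap F _ κ) * (A * aeval (Xᵀ) p.reverse) * Z := by simp only [mul_assoc]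
      _ = (X - algebraMap F _ κ) * (aeval X p * A * (Xᵀ) ^ p.natDegree) * Z := by rw [hkey]
      _ = ((X - algebraMap F _ κ) * aeval X p) * A * (Xᵀ) ^ p.natDegree * Z := by simp only [mul_assoc]
      _ = 0 := by rw [hf]; simp
  -- the columns lie in the eigenspace
  let φ : Module.End F (Fin m → F) := Matrix.toLin' X
  have hφ : φ.charpoly = (Polynomial.X - C κ) * p := by
    rw [← hX]
    exact Matrix.charpoly_toLin' X
  have hpκ : p.eval κ ≠ 0 := noRoot_of_irreducible hirr hdeg κ
  have hmul : φ.charpoly.rootMultiplicity κ = 1 := by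
    rw [hφ, rootMultiplicity_mul (by
      apply mul_ne_zero (X_sub_C_ne_zero κ)
      exact hirr.ne_zero), rootMultiplicity_X_sub_C_self, rootMultiplicity_eq_zero hpκ]
  have hle : Module.finrank F (φ.eigenspace κ) ≤ 1 := by
    have := LinearMap.finrank_eigenspace_le φ κ
    rwa [hmul] at this
  have hcol : ∀ j, (fun i => A i j) ∈ φ.eigenspace κ := by
    intro j
    rw [Module.End.mem_eigenspace_iff]
    ext i
    have h1 := congrFun (congrFun hEA i) j
    have h2 : (X * A) i j = κ * A i j := by
      rw [sub_mul] at h1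
      have h3 : (algebraMap F (Matrix (Fin m) (Fin m) F) κ * A) i j = κ * A i j := by
        rw [Algebra.algebraMap_eq_smul_one, smul_mul_assoc, one_mul]
        rfl
      rw [Matrix.sub_apply, h3] at h1
      exact sub_eq_zero.1 h1
    simp only [φ, Matrix.toLin'_apply, Pi.smul_apply, smul_eq_mul]
    rw [← h2, Matrix.mul_apply]
    rfl
  obtain ⟨e, he⟩ := finrank_le_one_iff.1 hle
  choose c hc using fun j => he ⟨_, hcol j⟩
  have hent : ∀ i j, A i j = c j * (e : Fin m → F) i := by
    intro i j
    have h1 := congrArg (fun v : φ.eigenspace κ => (v : Fin m → F) i) (hc j)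
    simpa using h1.symm
  ext i j
  by_cases hei : (e : Fin m → F) i = 0
  · rw [hent, hei, mul_zero]
    rfl
  · have h1 : c i = 0 := by
      have h2 := hA.diag i
      rw [hent] at h2
      exact (mul_eq_zero.1 h2).resolve_right hei
    rw [hA.skew i j, hent j i, h1, zero_mul, neg_zero]
    rfl

theorem vec_fix_zero (X : Matrix (Fin m) (Fin m) F) (hX : X.charpoly = (Polynomial.X - C κ) * p)
    (hirr : Irreducible p) (hdeg : 2 ≤ p.natDegree) (hκ1 : κ ≠ 1) (c : Fin m → F) (hc : X *ᵥ c = c) : c = 0 := by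
  classical
  by_contra hc0
  let φ : Module.End F (Fin m → F) := Matrix.toLin' X
  have hφ : φ.charpoly = (Polynomial.X - C κ) * p := by
    rw [← hX]
    exact Matrix.charpoly_toLin' X
  have he : φ.HasEigenvector 1 c := by
    refine ⟨?_, hc0⟩
    rw [Module.End.mem_eigenspace_iff, one_smul]
    exact hc
  have h1 := Module.End.hasEigenvalue_iff_isRoot_charpoly φ 1 |>.1 (Module.End.hasEigenvalue_of_hasEigenvector he)
  rw [hφ, IsRoot.def, eval_mul, eval_sub, eval_X, eval_C] at h1
  rcases mul_eq_zero.1 h1 with h2 | h2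
  · exact hκ1 (sub_eq_zero.1 h2).symm
  · exact noRoot_of_irreducible hirr hdeg 1 h2

end Main

end Cfsg.Agent.Lib.OreOmega
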