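import Mathlib
import Cfsg.Agent.Lib.Classical.Orth.Adjust
import Cfsg.Agent.Lib.OreOmega.Fix

/-!
# The odd orthogonal group in coordinates `(z, x, y)`

`Q = z² + x · y`. The unipotent elements `U c A`, the Levi elements, the interchange of `x` and `y`.
-/

set_option autoImplicit false
set_option linter.unusedSectionVars false
set_option linter.unusedSimpArgs false
set_option linter.unusedVariables false

namespace Cfsg.Agent.Lib.OreOmega

open Matrix QuadraticMap Module
open Cfsg.Agent.Lib.Classical.Orth.Basic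
open Cfsg.Agent.Lib.Classical.Orth.Models
open Cfsg.Agent.Lib.Classical.Orth.Adjust

variable {F : Type*} [Field F] {m : ℕ}

/-- The index type. -/
abbrev II (m : ℕ) := Unit ⊕ (Fin m ⊕ Fin m)

/-- The space. -/
abbrev VV (m : ℕ) (F : Type*) := II m → F

/-- The vector with coordinates `(z, x, y)`. -/
def mkV (z : F) (x y : Fin m → F) : VV m F := Sum.elim (fun _ => z) (Sum.elim x y)

/-- Coordinates. -/
def zc (v : VV m F) : F := v (Sum.inl ())
/-- Coordinates. -/
def xc (v : VV m F) : Fin m → F := fun i => v (Sum.inr (Sum.inl i))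
/-- Coordinates. -/
def yc (v : VV m F) : Fin m → F := fun i => v (Sum.inr (Sum.inr i))

@[simp] theorem zc_mkV (z : F) (x y : Fin m → F) : zc (mkV z x y) = z := rfl
@[simp] theorem xc_mkV (z : F) (x y : Fin m → F) : xc (mkV z x y) = x := rfl
@[simp] theorem yc_mkV (z : F) (x y : Fin m → F) : yc (mkV z x y) = y := rfl

theorem mkV_eta (v : VV m F) : mkV (zc v) (xc v) (yc v) = v := by
  ext k
  rcases k with ⟨⟩ | i | i <;> rfl

theorem vext {a b : VV m F} (h1 : zc a = zc b) (h2 : xc a = xc b) (h3 : yc a = yc b) : a = b := by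
  rw [← mkV_eta a, ← mkV_eta b, h1, h2, h3]

@[simp] theorem zc_add (a b : VV m F) : zc (a + b) = zc a + zc b := rfl
@[simp] theorem xc_add (a b : VV m F) : xc (a + b) = xc a + xc b := rfl
@[simp] theorem yc_add (a b : VV m F) : yc (a + b) = yc a + yc b := rfl
@[simp] theorem zc_smul (t : F) (a : VV m F) : zc (t • a) = t * zc a := rfl
@[simp] theorem xc_smul (t : F) (a : VV m F) : xc (t • a) = t • xc a := rfl
@[simp] theorem yc_smul (t : F) (a : VV m F) : yc (t • a) = t • yc a := rfl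
@[simp] theorem zc_sub (a b : VV m F) : zc (a - b) = zc a - zc b := rfl
@[simp] theorem xc_sub (a b : VV m F) : xc (a - b) = xc a - xc b := rfl
@[simp] theorem yc_sub (a b : VV m F) : yc (a - b) = yc a - yc b := rfl
@[simp] theorem zc_zero : zc (0 : VV m F) = 0 := rfl
@[simp] theorem xc_zero : xc (0 : VV m F) = 0 := rfl
@[simp] theorem yc_zero : yc (0 : VV m F) = 0 := rfl

theorem mkV_add (z z' : F) (x x' y y' : Fin m → F) :
    mkV z x y + mkV z' x' y' = mkV (z + z') (x + x') (y + y') := by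
  apply vext <;> rfl

theorem mkV_smul (t z : F) (x y : Fin m → F) : t • mkV z x y = mkV (t * z) (t • x) (t • y) := by
  apply vext <;> rfl

theorem QQ_apply (v : VV m F) : oddForm m F v = zc v ^ 2 + xc v ⬝ᵥ yc v := by
  rw [coe_oddForm_apply]
  rfl

theorem QQ_mkV (z : F) (x y : Fin m → F) : oddForm m F (mkV z x y) = z ^ 2 + x ⬝ᵥ y := by
  rw [QQ_apply]
  rfl

theorem polar_apply (a b : VV m F) :
    polar (⇑(oddForm m F)) a b = 2 * zc a * zc b + xc a ⬝ᵥ yc b + xc b ⬝ᵥ yc a := by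
  simp only [polar, QQ_apply, zc_add, xc_add, yc_add, add_dotProduct, dotProduct_add]
  ring

theorem polar_mkV (z z' : F) (x x' y y' : Fin m → F) :
    polar (⇑(oddForm m F)) (mkV z x y) (mkV z' x' y') = 2 * z * z' + x ⬝ᵥ y' + x' ⬝ᵥ y := polar_apply _ _

/-- The group. -/
abbrev OO (m : ℕ) (F : Type*) [Field F] := ↥(Cfsg.isometryGroup F (⇑(oddForm m F)))

/-- The matrix of an isometry. -/
abbrev matO (g : OO m F) : Matrix (II m) (II m) F := ((g : GL (II m) F) : Matrix (II m) (II m) F)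

theorem injective_of_QQ (h2 : (2 : F) ≠ 0) (f : VV m F →ₗ[F] VV m F)
    (hf : ∀ v, oddForm m F (f v) = oddForm m F v) : Function.Injective f := by
  intro a b hab
  have hnd := oddForm_nondegenerate (F := F) h2 m
  have hpol : ∀ v w, polar (⇑(oddForm m F)) (f v) (f w) = polar (⇑(oddForm m F)) v w := by
    intro v w
    simp only [polar]
    rw [← map_add, hf, hf, hf]
  rw [← sub_eq_zero]
  apply hnd.1
  intro w
  rw [polarBilin_apply_apply, ← hpol, map_sub, hab, sub_self]
  exact polar_zero_left (oddForm m F) _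

/-- An isometry from a linear map preserving the form. -/
noncomputable def isoOfLin (h2 : (2 : F) ≠ 0) (f : VV m F →ₗ[F] VV m F)
    (hf : ∀ v, oddForm m F (f v) = oddForm m F v) : OO m F :=
  isoOfEquiv (Q := oddForm m F) (LinearEquiv.ofInjectiveEndo f (injective_of_QQ h2 f hf)) (fun v => hf v)

theorem act_isoOfLin (h2 : (2 : F) ≠ 0) (f : VV m F →ₗ[F] VV m F)
    (hf : ∀ v, oddForm m F (f v) = oddForm m F v) (v : VV m F) : act (isoOfLin h2 f hf) v = f v :=
  act_isoOfEquiv _ _ v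

section U

/-- The unipotent element (as a linear map). -/
noncomputable def Ulin (c : Fin m → F) (A : Matrix (Fin m) (Fin m) F) : VV m F →ₗ[F] VV m F where
  toFun v := mkV (zc v + c ⬝ᵥ yc v) (xc v + A *ᵥ yc v - (c ⬝ᵥ yc v) • c - (2 * zc v) • c) (yc v)
  map_add' a b := by
    rw [mkV_add]
    congr 1
    · simp only [zc_add, yc_add, dotProduct_add]
      ring
    · simp only [zc_add, xc_add, yc_add, dotProduct_add, mulVec_add, add_smul, mul_add]
      abel
  map_smul' t a := by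
    rw [RingHom.id_apply, mkV_smul]
    congr 1
    · simp only [zc_smul, yc_smul, dotProduct_smul, smul_eq_mul]
      ring
    · simp only [zc_smul, xc_smul, yc_smul, dotProduct_smul, mulVec_smul, smul_add, smul_sub, smul_smul,
        smul_eq_mul]
      congr 1
      congr 1
      rw [mul_left_comm]

theorem Ulin_apply (c : Fin m → F) (A : Matrix (Fin m) (Fin m) F) (v : VV m F) :
    Ulin c A v = mkV (zc v + c ⬝ᵥ yc v) (xc v + A *ᵥ yc v - (c ⬝ᵥ yc v) • c - (2 * zc v) • c) (yc v) := rfl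

theorem QQ_Ulin (c : Fin m → F) {A : Matrix (Fin m) (Fin m) F} (hA : IsAltM A) (v : VV m F) :
    oddForm m F (Ulin c A v) = oddForm m F v := by
  rw [Ulin_apply, QQ_mkV, QQ_apply]
  simp only [sub_dotProduct, add_dotProduct, smul_dotProduct, hA (yc v), smul_eq_mul]
  ring

/-- The unipotent element. -/
noncomputable def UU (h2 : (2 : F) ≠ 0) (c : Fin m → F) (A : Matrix (Fin m) (Fin m) F) (hA : IsAltM A) : OO m F :=
  isoOfLin h2 (Ulin c A) (QQ_Ulin c hA)

theorem act_UU (h2 : (2 : F) ≠ 0) (c : Fin m → F) (A : Matrix (Fin m) (Fin m) F) (hA : IsAltM A) (v : VV m F) :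
    act (UU h2 c A hA) v = mkV (zc v + c ⬝ᵥ yc v) (xc v + A *ᵥ yc v - (c ⬝ᵥ yc v) • c - (2 * zc v) • c) (yc v) :=
  act_isoOfLin h2 _ _ v

theorem isAltM_smul {A : Matrix (Fin m) (Fin m) F} (hA : IsAltM A) (t : F) : IsAltM (t • A) := by
  intro y
  rw [smul_mulVec, smul_dotProduct, hA y, smul_zero]

/-- `U c A` is a square. -/
theorem UU_eq_sq (h2 : (2 : F) ≠ 0) (c : Fin m → F) (A : Matrix (Fin m) (Fin m) F) (hA : IsAltM A) :
    UU h2 c A hA = UU h2 ((2 : F)⁻¹ • c) ((2 : F)⁻¹ • A) (isAltM_smul hA _) *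
      UU h2 ((2 : F)⁻¹ • c) ((2 : F)⁻¹ • A) (isAltM_smul hA _) := by
  apply ext_act
  intro v
  rw [act_mul, act_UU, act_UU, act_UU]
  apply vext
  · simp only [zc_mkV, yc_mkV, smul_dotProduct, smul_eq_mul]
    field_simp
    ring
  · ext i
    simp only [zc_mkV, xc_mkV, yc_mkV, smul_dotProduct, smul_eq_mul, smul_mulVec, Pi.add_apply, Pi.sub_apply,
      Pi.smul_apply]
    field_simp
    ring
  · rfl

theorem det_sq_eq_one (h2 : (2 : F) ≠ 0) (g : OO m F) : (matO (g * g)).det = 1 := by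
  have h : (matO g).det = 1 ∨ (matO g).det = -1 := det_isometry (oddForm m F) (oddForm_nondegenerate h2 m) g
  have h3 : matO (g * g) = matO g * matO g := rfl
  rw [h3, Matrix.det_mul]
  rcases h with h | h <;> rw [h] <;> ring

theorem det_UU (h2 : (2 : F) ≠ 0) (c : Fin m → F) (A : Matrix (Fin m) (Fin m) F) (hA : IsAltM A) :
    (matO (UU h2 c A hA)).det = 1 := by
  rw [UU_eq_sq]
  exact det_sq_eq_one h2 _

end U

section Swap

/-- The interchange of `x` and `y`. -/
noncomputable def tauLin : VV m F →ₗ[F] VV m F where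
  toFun v := mkV (zc v) (yc v) (xc v)
  map_add' a b := by rw [mkV_add]; rfl
  map_smul' t a := by rw [RingHom.id_apply, mkV_smul]; rfl

/-- The interchange of `x` and `y`. -/
noncomputable def tau (h2 : (2 : F) ≠ 0) : OO m F :=
  isoOfLin h2 tauLin (fun v => by
    show oddForm m F (mkV (zc v) (yc v) (xc v)) = _
    rw [QQ_mkV, QQ_apply, dotProduct_comm])

theorem act_tau (h2 : (2 : F) ≠ 0) (v : VV m F) : act (tau h2) v = mkV (zc v) (yc v) (xc v) :=
  act_isoOfLin h2 _ _ v

theorem tau_mul_tau (h2 : (2 : F) ≠ 0) : tau h2 * tau h2 = (1 : OO m F) := by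
  apply ext_act
  intro v
  rw [act_mul, act_tau, act_tau, act_one]
  exact mkV_eta v

theorem tau_inv (h2 : (2 : F) ≠ 0) : (tau h2)⁻¹ = (tau h2 : OO m F) :=
  inv_eq_of_mul_eq_one_left (tau_mul_tau h2)

end Swap

section Levi

/-- The Levi element as an element of `GL`. -/
noncomputable def leviGL (B : GL (Fin m) F) : GL (II m) F where
  val := fromBlocks 1 0 0 (fromBlocks (B : Matrix (Fin m) (Fin m) F) 0 0 ((B⁻¹ : GL (Fin m) F) : Matrix (Fin m) (Fin m) F)ᵀ)
  inv := fromBlocks 1 0 0 (fromBlocks ((B⁻¹ : GL (Fin m) F) : Matrix (Fin m) (Fin m) F) 0 0 (B : Matrix (Fin m) (Fin m) F)ᵀ)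
  val_inv := by
    rw [fromBlocks_multiply]
    simp only [mul_one, mul_zero, zero_mul, add_zero, zero_add, fromBlocks_multiply]
    rw [← transpose_mul]
    simp [fromBlocks_one]
  inv_val := by
    rw [fromBlocks_multiply]
    simp only [mul_one, mul_zero, zero_mul, add_zero, zero_add, fromBlocks_multiply]
    rw [← transpose_mul]
    simp [fromBlocks_one]

theorem leviGL_mulVec (B : GL (Fin m) F) (v : VV m F) :
    (leviGL B : Matrix (II m) (II m) F) *ᵥ v = mkV (zc v) ((B : Matrix (Fin m) (Fin m) F) *ᵥ xc v)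
      (((B⁻¹ : GL (Fin m) F) : Matrix (Fin m) (Fin m) F)ᵀ *ᵥ yc v) := by
  have hv : v = Sum.elim (fun _ => zc v) (Sum.elim (xc v) (yc v)) := (mkV_eta v).symm
  show fromBlocks 1 0 0 _ *ᵥ v = _
  conv_lhs => rw [hv]
  rw [fromBlocks_mulVec]
  simp only [Sum.elim_comp_inl, Sum.elim_comp_inr, zero_mulVec, add_zero, zero_add, one_mulVec,
    fromBlocks_mulVec]
  rfl

theorem det_leviGL (B : GL (Fin m) F) : (leviGL B : Matrix (II m) (II m) F).det = 1 := by
  show (fromBlocks 1 0 0 _).det = 1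
  rw [det_fromBlocks_zero₂₁, det_fromBlocks_zero₂₁, det_one, one_mul, det_transpose]
  rw [← det_mul]
  have : (B : Matrix (Fin m) (Fin m) F) * ((B⁻¹ : GL (Fin m) F) : Matrix (Fin m) (Fin m) F) = 1 := by
    rw [← Units.val_mul, mul_inv_cancel]
    rfl
  rw [this, det_one]

/-- The Levi homomorphism. -/
noncomputable def levi : GL (Fin m) F →* OO m F where
  toFun B := ⟨leviGL B, (mem_isometryGroup_iff _ _).2 (fun v => by
    rw [leviGL_mulVec, QQ_mkV, QQ_apply]
    congr 1
    rw [mulVec_transpose, dotProduct_comm, ← dotProduct_mulVec, mulVec_mulVec]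
    have h1 : ((B⁻¹ : GL (Fin m) F) : Matrix (Fin m) (Fin m) F) * (B : Matrix (Fin m) (Fin m) F) = 1 := by
      rw [← Units.val_mul, inv_mul_cancel]
      rfl
    rw [h1, one_mulVec, dotProduct_comm])⟩
  map_one' := by
    apply Subtype.ext
    apply Units.ext
    apply Matrix.ext_of_mulVec_single
    intro j
    show (leviGL (1 : GL (Fin m) F) : Matrix (II m) (II m) F) *ᵥ (Pi.single j 1) =
      (1 : Matrix (II m) (II m) F) *ᵥ (Pi.single j 1)
    rw [leviGL_mulVec, one_mulVec]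
    simp only [Units.val_one, one_mulVec, inv_one, transpose_one]
    exact mkV_eta _
  map_mul' A B := by
    apply Subtype.ext
    apply Units.ext
    apply Matrix.ext_of_mulVec_single
    intro j
    show (leviGL (A * B) : Matrix (II m) (II m) F) *ᵥ _ =
      ((leviGL A : Matrix (II m) (II m) F) * (leviGL B : Matrix (II m) (II m) F)) *ᵥ _
    rw [← mulVec_mulVec, leviGL_mulVec, leviGL_mulVec, leviGL_mulVec]
    simp only [zc_mkV, xc_mkV, yc_mkV, Units.val_mul, _root_.mul_inv_rev, transpose_mul, mulVec_mulVec]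

theorem act_levi (B : GL (Fin m) F) (v : VV m F) :
    act (levi B) v = mkV (zc v) ((B : Matrix (Fin m) (Fin m) F) *ᵥ xc v)
      (((B⁻¹ : GL (Fin m) F) : Matrix (Fin m) (Fin m) F)ᵀ *ᵥ yc v) :=
  leviGL_mulVec B v

theorem det_levi (B : GL (Fin m) F) : (matO (levi B)).det = 1 := det_leviGL B

theorem tau_levi_tau (h2 : (2 : F) ≠ 0) (B : GL (Fin m) F) (C : GL (Fin m) F)
    (hC : (C : Matrix (Fin m) (Fin m) F) = ((B⁻¹ : GL (Fin m) F) : Matrix (Fin m) (Fin m) F)ᵀ) :
    tau h2 * levi B * tau h2 = levi C := by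
  apply ext_act
  intro v
  rw [act_mul, act_mul, act_tau, act_levi, act_tau, act_levi]
  have h1 : ((C⁻¹ : GL (Fin m) F) : Matrix (Fin m) (Fin m) F)ᵀ = (B : Matrix (Fin m) (Fin m) F) := by
    have h3 : (C : Matrix (Fin m) (Fin m) F) * (B : Matrix (Fin m) (Fin m) F)ᵀ = 1 := by
      rw [hC, ← transpose_mul, ← Units.val_mul, mul_inv_cancel]
      simp
    have h4 : ((C⁻¹ : GL (Fin m) F) : Matrix (Fin m) (Fin m) F) = (B : Matrix (Fin m) (Fin m) F)ᵀ := by
      have h5 : ((C⁻¹ : GL (Fin m) F) : Matrix (Fin m) (Fin m) F) * (C : Matrix (Fin m) (Fin m) F) = 1 := by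
        rw [← Units.val_mul, inv_mul_cancel]
        rfl
      calc ((C⁻¹ : GL (Fin m) F) : Matrix (Fin m) (Fin m) F)
          = ((C⁻¹ : GL (Fin m) F) : Matrix (Fin m) (Fin m) F) * ((C : Matrix (Fin m) (Fin m) F) * (B : Matrix (Fin m) (Fin m) F)ᵀ) := by
            rw [h3, mul_one]
        _ = _ := by rw [← mul_assoc, h5, one_mul]
    rw [h4, transpose_transpose]
  simp only [zc_mkV, xc_mkV, yc_mkV, h1, hC]

end Levi

section Subgroups

/-- The pointwise stabilizer of `W = {z = 0, y = 0}` in `SO`. -/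
def QU (m : ℕ) (F : Type*) [Field F] : Subgroup (OO m F) where
  carrier := {h | (∀ x, act h (mkV 0 x 0) = mkV 0 x 0) ∧ (matO h).det = 1}
  mul_mem' := by
    rintro a b ⟨ha, ha'⟩ ⟨hb, hb'⟩
    refine ⟨fun x => by rw [act_mul, hb, ha], ?_⟩
    have h3 : matO (a * b) = matO a * matO b := rfl
    rw [h3, det_mul, ha', hb', one_mul]
  one_mem' := ⟨fun x => act_one _, by
    have h3 : matO (1 : OO m F) = 1 := rfl
    rw [h3, det_one]⟩
  inv_mem' := by
    rintro a ⟨ha, ha'⟩
    refine ⟨fun x => ?_, ?_⟩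
    · conv_lhs => rw [← ha x]
      exact act_inv_act a _
    · have h3 : matO a⁻¹ * matO a = 1 := by
        have : matO (a⁻¹ * a) = 1 := by
          rw [inv_mul_cancel]
          rfl
        exact this
      have h4 := congrArg Matrix.det h3
      rwa [det_mul, ha', mul_one, det_one] at h4

/-- The pointwise stabilizer of `T = {z = 0, x = 0}` in `SO`. -/
def QL (m : ℕ) (F : Type*) [Field F] : Subgroup (OO m F) where
  carrier := {h | (∀ y, act h (mkV 0 0 y) = mkV 0 0 y) ∧ (matO h).det = 1}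
  mul_mem' := by
    rintro a b ⟨ha, ha'⟩ ⟨hb, hb'⟩
    refine ⟨fun x => by rw [act_mul, hb, ha], ?_⟩
    have h3 : matO (a * b) = matO a * matO b := rfl
    rw [h3, det_mul, ha', hb', one_mul]
  one_mem' := ⟨fun x => act_one _, by
    have h3 : matO (1 : OO m F) = 1 := rfl
    rw [h3, det_one]⟩
  inv_mem' := by
    rintro a ⟨ha, ha'⟩
    refine ⟨fun x => ?_, ?_⟩
    · conv_lhs => rw [← ha x]
      exact act_inv_act a _
    · have h3 : matO a⁻¹ * matO a = 1 := by
        have : matO (a⁻¹ * a) = 1 := by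
          rw [inv_mul_cancel]
          rfl
        exact this
      have h4 := congrArg Matrix.det h3
      rwa [det_mul, ha', mul_one, det_one] at h4

theorem mem_QU {h : OO m F} : h ∈ QU m F ↔ (∀ x, act h (mkV 0 x 0) = mkV 0 x 0) ∧ (matO h).det = 1 := Iff.rfl
theorem mem_QL {h : OO m F} : h ∈ QL m F ↔ (∀ y, act h (mkV 0 0 y) = mkV 0 0 y) ∧ (matO h).det = 1 := Iff.rfl

theorem UU_mem_QU (h2 : (2 : F) ≠ 0) (c : Fin m → F) (A : Matrix (Fin m) (Fin m) F) (hA : IsAltM A) :
    UU h2 c A hA ∈ QU m F := by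
  refine ⟨fun x => ?_, det_UU h2 c A hA⟩
  rw [act_UU]
  apply vext
  · simp
  · simp
  · simp

theorem det_tau_conj (h2 : (2 : F) ≠ 0) (h : OO m F) : (matO (tau h2 * h * tau h2)).det = (matO h).det := by
  have h3 : matO (tau h2 * h * tau h2) = matO (tau h2) * matO h * matO (tau h2) := rfl
  rw [h3, det_mul, det_mul, mul_comm, ← mul_assoc, ← det_mul]
  have h4 : matO (tau h2 : OO m F) * matO (tau h2) = (1 : Matrix (II m) (II m) F) := by
    have : matO (tau h2 * tau h2 : OO m F) = 1 := by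
      rw [tau_mul_tau]
      rfl
    exact this
  rw [h4, det_one, one_mul]

/-- The interchange carries the two subgroups to each other. -/
theorem tau_conj_mem_QL (h2 : (2 : F) ≠ 0) {h : OO m F} (hh : h ∈ QU m F) : tau h2 * h * tau h2 ∈ QL m F := by
  refine ⟨fun y => ?_, by rw [det_tau_conj]; exact hh.2⟩
  have e : ∀ a b : Fin m → F, act (tau h2) (mkV 0 a b) = mkV 0 b a := fun a b => act_tau h2 _
  rw [act_mul, act_mul, e, hh.1, e]

theorem tau_conj_mem_QU (h2 : (2 : F) ≠ 0) {h : OO m F} (hh : h ∈ QL m F) : tau h2 * h * tau h2 ∈ QU m F := by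
  refine ⟨fun y => ?_, by rw [det_tau_conj]; exact hh.2⟩
  have e : ∀ a b : Fin m → F, act (tau h2) (mkV 0 a b) = mkV 0 b a := fun a b => act_tau h2 _
  rw [act_mul, act_mul, e, hh.1, e]

theorem levi_conj_mem_QU (B : GL (Fin m) F) {h : OO m F} (hh : h ∈ QU m F) : levi B * h * (levi B)⁻¹ ∈ QU m F := by
  refine ⟨fun x => ?_, ?_⟩
  · have e : ∀ (C : GL (Fin m) F) (a : Fin m → F), act (levi C) (mkV 0 a 0) = mkV 0 ((C : Matrix (Fin m) (Fin m) F) *ᵥ a) 0 := by
      intro C a
      rw [act_levi]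
      simp only [zc_mkV, xc_mkV, yc_mkV, mulVec_zero]
    rw [act_mul, act_mul, ← map_inv, e, hh.1, e, mulVec_mulVec, ← Units.val_mul, mul_inv_cancel]
    simp
  · have h3 : matO (levi B * h * (levi B)⁻¹) = matO (levi B) * matO h * matO ((levi B)⁻¹) := rfl
    rw [h3, det_mul, det_mul, hh.2, ← map_inv, det_levi, det_levi]
    ring

theorem levi_conj_mem_QL (B : GL (Fin m) F) {h : OO m F} (hh : h ∈ QL m F) : levi B * h * (levi B)⁻¹ ∈ QL m F := by
  refine ⟨fun x => ?_, ?_⟩
  · have e : ∀ (C : GL (Fin m) F) (a : Fin m → F), act (levi C) (mkV 0 0 a) = mkV 0 0 (((C⁻¹ : GL (Fin m) F) : Matrix (Fin m) (Fin m) F)ᵀ *ᵥ a) := by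
      intro C a
      rw [act_levi]
      simp only [zc_mkV, xc_mkV, yc_mkV, mulVec_zero]
    rw [act_mul, act_mul, ← map_inv, e, hh.1, e, mulVec_mulVec, inv_inv, ← transpose_mul, ← Units.val_mul, mul_inv_cancel]
    simp
  · have h3 : matO (levi B * h * (levi B)⁻¹) = matO (levi B) * matO h * matO ((levi B)⁻¹) := rfl
    rw [h3, det_mul, det_mul, hh.2, ← map_inv, det_levi, det_levi]
    ring

end Subgroups

/-- The inverse transpose. -/
noncomputable def trInv (B : GL (Fin m) F) : GL (Fin m) F where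
  val := ((B⁻¹ : GL (Fin m) F) : Matrix (Fin m) (Fin m) F)ᵀ
  inv := (B : Matrix (Fin m) (Fin m) F)ᵀ
  val_inv := by
    rw [← transpose_mul, ← Units.val_mul, mul_inv_cancel]
    simp
  inv_val := by
    rw [← transpose_mul, ← Units.val_mul, inv_mul_cancel]
    simp

theorem coe_trInv (B : GL (Fin m) F) : (trInv B : Matrix (Fin m) (Fin m) F) = ((B⁻¹ : GL (Fin m) F) : Matrix (Fin m) (Fin m) F)ᵀ := rfl
theorem coe_trInv_inv (B : GL (Fin m) F) : (((trInv B)⁻¹ : GL (Fin m) F) : Matrix (Fin m) (Fin m) F) = (B : Matrix (Fin m) (Fin m) F)ᵀ := rfl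

theorem tau_levi_tau' (h2 : (2 : F) ≠ 0) (B : GL (Fin m) F) : tau h2 * levi B * tau h2 = levi (trInv B) :=
  tau_levi_tau h2 B _ rfl

end Cfsg.Agent.Lib.OreOmega
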