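import Mathlib
import Cfsg.Agent.Lib.OreOmega.Model

/-!
# The big cell of the odd orthogonal group
-/

set_option autoImplicit false
set_option linter.unusedSectionVars false
set_option linter.unusedSimpArgs false
set_option linter.unusedVariables false

namespace Cfsg.Agent.Lib.OreOmega

open Matrix QuadraticMap Module
open Cfsg.Agent.Lib.Classical.Orth.Basic
open Cfsg.Agent.Lib.Classical.Orth.Models
open Cfsg.Agent.Lib.Classical.Orth.Adjust

variable {F : Type*} [Field F] {m : ℕ}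

section Blocks

/-- The block `T → V₀`. -/
def blkC (g : OO m F) : Fin m → F := fun j => matO g (Sum.inl ()) (Sum.inr (Sum.inr j))
/-- The block `T → W`. -/
def blkR (g : OO m F) : Matrix (Fin m) (Fin m) F := fun i j => matO g (Sum.inr (Sum.inl i)) (Sum.inr (Sum.inr j))
/-- The block `T → T`. -/
def blkD (g : OO m F) : Matrix (Fin m) (Fin m) F := fun i j => matO g (Sum.inr (Sum.inr i)) (Sum.inr (Sum.inr j))

theorem act_T (g : OO m F) (y : Fin m → F) :
    act g (mkV 0 0 y) = mkV (blkC g ⬝ᵥ y) (blkR g *ᵥ y) (blkD g *ᵥ y) := by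
  apply vext
  · show (matO g *ᵥ mkV 0 0 y) (Sum.inl ()) = blkC g ⬝ᵥ y
    simp [mulVec, dotProduct, Fintype.sum_sum_type, mkV, blkC]
  · ext i
    show (matO g *ᵥ mkV 0 0 y) (Sum.inr (Sum.inl i)) = (blkR g *ᵥ y) i
    simp [mulVec, dotProduct, Fintype.sum_sum_type, mkV, blkR]
  · ext i
    show (matO g *ᵥ mkV 0 0 y) (Sum.inr (Sum.inr i)) = (blkD g *ᵥ y) i
    simp [mulVec, dotProduct, Fintype.sum_sum_type, mkV, blkD]

/-- The block relation from the form. -/
theorem blk_QQ (g : OO m F) (y : Fin m → F) : (blkC g ⬝ᵥ y) ^ 2 + (blkR g *ᵥ y) ⬝ᵥ (blkD g *ᵥ y) = 0 := by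
  have h := Q_act g (mkV 0 0 y)
  rw [act_T, QQ_mkV, QQ_mkV] at h
  simpa using h

/-- The block relation from the polar form. -/
theorem blk_polar (g : OO m F) (y y' : Fin m → F) :
    2 * (blkC g ⬝ᵥ y) * (blkC g ⬝ᵥ y') + (blkR g *ᵥ y) ⬝ᵥ (blkD g *ᵥ y') + (blkR g *ᵥ y') ⬝ᵥ (blkD g *ᵥ y) = 0 := by
  have h := polar_act g (mkV 0 0 y) (mkV 0 0 y')
  rw [act_T, act_T, polar_mkV, polar_mkV] at h
  simpa using h

end Blocks

section Classify

variable (h2 : (2 : F) ≠ 0)

theorem dot_ext {a b : Fin m → F} (h : ∀ x : Fin m → F, x ⬝ᵥ a = x ⬝ᵥ b) : a = b := by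
  ext i
  simpa using h (Pi.single i 1)

theorem yc_act_of_fixW {g : OO m F} (hg : ∀ x, act g (mkV 0 x 0) = mkV 0 x 0) (v : VV m F) :
    yc (act g v) = yc v := by
  apply dot_ext
  intro x
  have h := polar_act g v (mkV 0 x 0)
  rw [hg, polar_apply, polar_apply] at h
  simpa using h

theorem QQ_e0 : oddForm m F (mkV 1 0 0) = 1 := by
  rw [QQ_mkV]
  simp

theorem QQ_e0_ne : oddForm m F (mkV 1 0 0) ≠ 0 := by
  rw [QQ_e0]
  exact one_ne_zero

/-- The reflection in the unit vector. -/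
noncomputable def r0 (h2 : (2 : F) ≠ 0) : OO m F :=
  reflectionIso (oddForm m F) (mkV 1 0 0) QQ_e0_ne

theorem act_r0 (v : VV m F) : act (r0 h2) v = mkV (- zc v) (xc v) (yc v) := by
  unfold r0
  rw [reflectionIso_act, QQ_e0, polar_apply]
  apply vext
  · simp
    ring
  · ext i
    simp
  · ext i
    simp

theorem det_r0 : (matO (r0 h2 : OO m F)).det = -1 :=
  det_reflectionMatrix (oddForm m F) QQ_e0_ne

include h2

/-- The classification of `QU`. -/
theorem exists_UU_of_mem {h : OO m F} (hh : h ∈ QU m F) : ∃ c A hA, h = UU h2 c A hA := by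
  obtain ⟨hfix, hdet⟩ := hh
  have hy := yc_act_of_fixW hfix
  set c := blkC h with hc
  set S := blkR h with hS
  have hT : ∀ y, act h (mkV 0 0 y) = mkV (c ⬝ᵥ y) (S *ᵥ y) y := by
    intro y
    rw [act_T]
    have := hy (mkV 0 0 y)
    rw [act_T] at this
    simp only [yc_mkV] at this
    rw [this]
  -- the image of the unit vector
  set ε := zc (act h (mkV 1 0 0)) with hε
  set a := xc (act h (mkV 1 0 0)) with ha
  have he₀ : act h (mkV 1 0 0) = mkV ε a 0 := by
    apply vext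
    · rfl
    · rfl
    · simpa using hy (mkV 1 0 0)
  have hε2 : ε ^ 2 = 1 := by
    have h3 := Q_act h (mkV 1 0 0)
    rw [he₀, QQ_mkV, QQ_mkV] at h3
    simpa using h3
  have ha2 : a = -(2 * ε) • c := by
    apply dot_ext
    intro y
    have h3 := polar_act h (mkV 1 0 0) (mkV 0 0 y)
    rw [he₀, hT, polar_mkV, polar_mkV] at h3
    simp only [dotProduct_zero, zero_dotProduct, mul_zero, add_zero] at h3
    rw [dotProduct_smul, smul_eq_mul, dotProduct_comm y a, dotProduct_comm y c]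
    linear_combination h3
  set A := S + vecMulVec c c with hA
  have hAy : ∀ y, A *ᵥ y = S *ᵥ y + (c ⬝ᵥ y) • c := by
    intro y
    rw [hA, add_mulVec]
    congr 1
    ext i
    simp [vecMulVec_mulVec, mul_comm]
  have hAlt : IsAltM A := by
    intro y
    have h3 := Q_act h (mkV 0 0 y)
    rw [hT, QQ_mkV, QQ_mkV] at h3
    rw [hAy, add_dotProduct, smul_dotProduct, smul_eq_mul]
    simp only [zero_dotProduct, dotProduct_zero] at h3
    linear_combination h3
  have hgen : ∀ v, act h v = mkV (ε * zc v + c ⬝ᵥ yc v) (xc v + A *ᵥ yc v - (c ⬝ᵥ yc v) • c - (2 * ε * zc v) • c) (yc v) := by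
    intro v
    have hv : v = zc v • mkV 1 0 0 + mkV 0 (xc v) 0 + mkV 0 0 (yc v) := by
      apply vext
      · simp
      · simp
      · simp
    conv_lhs => rw [hv]
    rw [act_add, act_add, act_smul, he₀, hfix, hT, ha2, hAy]
    apply vext
    · simp
      ring
    · ext i
      simp
      ring
    · simp
  refine ⟨c, A, hAlt, ?_⟩
  have hone : (1 : F) ≠ -1 := by
    intro h4
    apply h2
    linear_combination h4
  have hε3 : ε = 1 ∨ ε = -1 := by
    have : (ε - 1) * (ε + 1) = 0 := by linear_combination hε2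
    rcases mul_eq_zero.1 this with h4 | h4
    · exact Or.inl (sub_eq_zero.1 h4)
    · exact Or.inr (by linear_combination h4)
  rcases hε3 with h1 | h1
  · apply ext_act
    intro v
    rw [hgen, act_UU, h1]
    simp
  · exfalso
    have h5 : h * r0 h2 = UU h2 c A hAlt := by
      apply ext_act
      intro v
      rw [act_mul, act_r0, hgen, act_UU, h1]
      apply vext
      · simp
      · ext i
        simp
      · simp
    have h6 : matO (h * r0 h2) = matO h * matO (r0 h2) := rfl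
    have h7 := det_UU h2 c A hAlt
    rw [← h5, h6, det_mul, hdet, det_r0, one_mul] at h7
    exact hone h7.symm

/-- A fixed point in `QU`. -/
theorem fpf_QU (B : GL (Fin m) F) (hc : ∀ c, (B : Matrix (Fin m) (Fin m) F) *ᵥ c = c → c = 0)
    (hA : ∀ A, IsAltM A → (B : Matrix (Fin m) (Fin m) F) * A * (B : Matrix (Fin m) (Fin m) F)ᵀ = A → A = 0) :
    ∀ q ∈ QU m F, levi B * q * (levi B)⁻¹ = q → q = 1 := by
  intro q hq hfix
  obtain ⟨c, A, hAlt, rfl⟩ := exists_UU_of_mem h2 hq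
  set N : Matrix (Fin m) (Fin m) F := (B : Matrix (Fin m) (Fin m) F) with hN
  have hinv : ((B⁻¹ : GL (Fin m) F) : Matrix (Fin m) (Fin m) F)ᵀ * Nᵀ = 1 := by
    rw [← transpose_mul, hN, ← Units.val_mul, mul_inv_cancel]
    simp
  have hact : ∀ y, act (levi B * UU h2 c A hAlt * (levi B)⁻¹) (mkV 0 0 y) =
      mkV (c ⬝ᵥ (Nᵀ *ᵥ y)) (N *ᵥ (A *ᵥ (Nᵀ *ᵥ y)) - (c ⬝ᵥ (Nᵀ *ᵥ y)) • (N *ᵥ c)) y := by
    intro y
    rw [act_mul, act_mul, ← map_inv, act_levi, act_UU, act_levi]
    simp only [zc_mkV, xc_mkV, yc_mkV, mulVec_zero, inv_inv]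
    apply vext
    · simp [hN]
    · ext i
      simp [mulVec_sub, mulVec_add, mulVec_smul, hN]
    · simp only [yc_mkV, mulVec_mulVec, hN] at *
      rw [hinv, one_mulVec]
  have hcomp : ∀ y, (c ⬝ᵥ (Nᵀ *ᵥ y)) = c ⬝ᵥ y ∧ N *ᵥ (A *ᵥ (Nᵀ *ᵥ y)) - (c ⬝ᵥ (Nᵀ *ᵥ y)) • (N *ᵥ c) = A *ᵥ y - (c ⬝ᵥ y) • c := by
    intro y
    have h3 := hact y
    rw [hfix, act_UU] at h3
    simp only [zc_mkV, xc_mkV, yc_mkV, zero_add, mul_zero, zero_smul, sub_zero] at h3
    have h4 := congrArg zc h3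
    have h5 := congrArg xc h3
    simp only [zc_mkV, xc_mkV] at h4 h5
    exact ⟨h4.symm, h5.symm⟩
  have hc0 : c = 0 := by
    apply hc
    apply dot_ext
    intro y
    have h3 := (hcomp y).1
    rw [dotProduct_comm y, dotProduct_comm y]
    rw [dotProduct_mulVec, vecMul_transpose] at h3
    exact h3
  subst hc0
  have hA0 : A = 0 := by
    apply hA A hAlt
    apply Matrix.ext_of_mulVec_single
    intro j
    have h3 := (hcomp (Pi.single j 1)).2
    simp only [zero_dotProduct, zero_smul, sub_zero, mulVec_mulVec] at h3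
    rw [← h3, mul_assoc]
  subst hA0
  apply ext_act
  intro v
  rw [act_UU, act_one]
  simp [mkV_eta]

/-- A fixed point in `QL`. -/
theorem fpf_QL (D : GL (Fin m) F) (hc : ∀ c, (D : Matrix (Fin m) (Fin m) F)ᵀ *ᵥ c = c → c = 0)
    (hA : ∀ A, IsAltM A → (D : Matrix (Fin m) (Fin m) F)ᵀ * A * (D : Matrix (Fin m) (Fin m) F) = A → A = 0) :
    ∀ q ∈ QL m F, levi D * q * (levi D)⁻¹ = q → q = 1 := by
  intro q hq hfix
  have h1 := tau_conj_mem_QU h2 hq
  have hc' : ∀ c, (trInv D : Matrix (Fin m) (Fin m) F) *ᵥ c = c → c = 0 := by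
    intro c h3
    apply hc
    rw [coe_trInv] at h3
    conv_lhs => rw [← h3]
    rw [mulVec_mulVec, ← transpose_mul, ← Units.val_mul, inv_mul_cancel]
    simp
  have hA' : ∀ A, IsAltM A → (trInv D : Matrix (Fin m) (Fin m) F) * A * (trInv D : Matrix (Fin m) (Fin m) F)ᵀ = A → A = 0 := by
    intro A hAlt h3
    apply hA A hAlt
    rw [coe_trInv, transpose_transpose] at h3
    conv_lhs => rw [← h3]
    have e1 : (D : Matrix (Fin m) (Fin m) F)ᵀ * ((D⁻¹ : GL (Fin m) F) : Matrix (Fin m) (Fin m) F)ᵀ = 1 := by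
      rw [← transpose_mul, ← Units.val_mul, inv_mul_cancel]
      simp
    have e2 : ((D⁻¹ : GL (Fin m) F) : Matrix (Fin m) (Fin m) F) * (D : Matrix (Fin m) (Fin m) F) = 1 := by
      rw [← Units.val_mul, inv_mul_cancel]
      rfl
    calc _ = ((D : Matrix (Fin m) (Fin m) F)ᵀ * ((D⁻¹ : GL (Fin m) F) : Matrix (Fin m) (Fin m) F)ᵀ) * A * (((D⁻¹ : GL (Fin m) F) : Matrix (Fin m) (Fin m) F) * (D : Matrix (Fin m) (Fin m) F)) := by
          simp only [mul_assoc]
      _ = A := by rw [e1, e2, one_mul, mul_one]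
  have h3 := fpf_QU h2 (trInv D) hc' hA' _ h1 (by
    rw [← tau_levi_tau' h2 D]
    have h5 : (tau h2 * levi D * tau h2)⁻¹ = tau h2 * (levi D)⁻¹ * tau h2 := by
      rw [_root_.mul_inv_rev, _root_.mul_inv_rev, tau_inv, mul_assoc]
    rw [h5]
    calc tau h2 * levi D * tau h2 * (tau h2 * q * tau h2) * (tau h2 * (levi D)⁻¹ * tau h2)
        = tau h2 * levi D * (tau h2 * tau h2) * q * (tau h2 * tau h2) * (levi D)⁻¹ * tau h2 := by
          simp only [mul_assoc]
      _ = tau h2 * (levi D * q * (levi D)⁻¹) * tau h2 := by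
          rw [tau_mul_tau]
          simp only [mul_one, mul_assoc]
      _ = _ := by rw [hfix])
  calc q = tau h2 * (tau h2 * q * tau h2) * tau h2 := by
        calc q = (tau h2 * tau h2) * q * (tau h2 * tau h2) := by rw [tau_mul_tau, one_mul, mul_one]
          _ = _ := by simp only [mul_assoc]
    _ = 1 := by rw [h3, mul_one, tau_mul_tau]

end Classify

section CellDecomp

variable (h2 : (2 : F) ≠ 0)

include h2

/-- The big cell. -/
theorem exists_cell (g : OO m F) (hdet : (matO g).det = 1) (D : GL (Fin m) F)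
    (hD : blkD g = (D : Matrix (Fin m) (Fin m) F)) :
    ∃ u ∈ QU m F, ∃ v ∈ QL m F, g = u * levi (trInv D) * v := by
  set Di : Matrix (Fin m) (Fin m) F := ((D⁻¹ : GL (Fin m) F) : Matrix (Fin m) (Fin m) F) with hDi
  have e1 : Di * (D : Matrix (Fin m) (Fin m) F) = 1 := by
    rw [hDi, ← Units.val_mul, inv_mul_cancel]
    rfl
  have e2 : (D : Matrix (Fin m) (Fin m) F) * Di = 1 := by
    rw [hDi, ← Units.val_mul, mul_inv_cancel]
    rfl
  set c : Fin m → F := Diᵀ *ᵥ blkC g with hc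
  have hcd : ∀ w, c ⬝ᵥ w = blkC g ⬝ᵥ (Di *ᵥ w) := by
    intro w
    rw [hc, mulVec_transpose, ← dotProduct_mulVec]
  set S := blkR g * Di with hS
  set A := S + vecMulVec c c with hA
  have hAy : ∀ y, A *ᵥ y = S *ᵥ y + (c ⬝ᵥ y) • c := by
    intro y
    rw [hA, add_mulVec]
    congr 1
    ext i
    simp [vecMulVec_mulVec, mul_comm]
  have hAlt : IsAltM A := by
    intro w
    have h3 := blk_QQ g (Di *ᵥ w)
    have e3 : (D : Matrix (Fin m) (Fin m) F) *ᵥ (Di *ᵥ w) = w := by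
      rw [mulVec_mulVec, e2, one_mulVec]
    have e4 : blkR g *ᵥ (Di *ᵥ w) = S *ᵥ w := by
      rw [mulVec_mulVec]
    rw [hD, e3, e4, ← hcd] at h3
    rw [hAy, add_dotProduct, smul_dotProduct, smul_eq_mul]
    linear_combination h3
  set u := UU h2 c A hAlt with hu
  set l := levi (trInv D) with hl
  have hlT : ∀ y, act l (mkV 0 0 y) = mkV 0 0 ((D : Matrix (Fin m) (Fin m) F) *ᵥ y) := by
    intro y
    rw [hl, act_levi, coe_trInv_inv, transpose_transpose]
    simp
  have hmain : ∀ y, act (u * l) (mkV 0 0 y) = act g (mkV 0 0 y) := by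
    intro y
    rw [act_mul, hlT, hu, act_UU, act_T]
    simp only [zc_mkV, xc_mkV, yc_mkV, zero_add, mul_zero, zero_smul, sub_zero]
    rw [hD, hAy, hcd]
    have e3 : Di *ᵥ ((D : Matrix (Fin m) (Fin m) F) *ᵥ y) = y := by
      rw [mulVec_mulVec, e1, one_mulVec]
    have e4 : S *ᵥ ((D : Matrix (Fin m) (Fin m) F) *ᵥ y) = blkR g *ᵥ y := by
      rw [hS, mulVec_mulVec, mul_assoc, e1, mul_one]
    rw [e3, e4]
    simp
  refine ⟨u, UU_mem_QU h2 c A hAlt, (u * l)⁻¹ * g, ⟨fun y => ?_, ?_⟩, ?_⟩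
  · rw [act_mul, ← hmain, act_inv_act]
  · have h3 : matO (u * l) * matO ((u * l)⁻¹ * g) = matO g := by
      have : matO ((u * l) * ((u * l)⁻¹ * g)) = matO g := by
        rw [mul_inv_cancel_left]
      exact this
    have h4 : (matO (u * l)).det = 1 := by
      have h5 : matO (u * l) = matO u * matO l := rfl
      rw [h5, det_mul, hu, det_UU, hl, det_levi, one_mul]
    have h6 := congrArg Matrix.det h3
    rwa [det_mul, h4, one_mul, hdet] at h6
  · group

end CellDecomp

end Cfsg.Agent.Lib.OreOmega
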