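import Mathlib
import Cfsg.Agent.Lib.OreOmega.Fix

/-!
# The normal form of the `T → T` block: matrix computations
-/

set_option autoImplicit false
set_option linter.unusedSectionVars false
set_option linter.unusedSimpArgs false
set_option linter.unusedVariables false

namespace Cfsg.Agent.Lib.OreOmega

open Matrix

variable {F : Type*} [Field F] {m : ℕ}

/-- The form of the block. -/
def formI (P : Matrix (Fin m) (Fin m) F) (s : Finset (Fin m)) (δ : Fin m → F) (J : Matrix (Fin m) (Fin m) F) :
    Matrix (Fin m) (Fin m) F := fun i j =>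
  if j ∉ s then P i j else if i ∉ s then J i j else if i < j then 0 else if i = j then -(δ i) ^ 2 else -2 * δ i * δ j

/-- The relations satisfied by the data. -/
structure FormData (P : Matrix (Fin m) (Fin m) F) (ρ : Fin m → F) (s : Finset (Fin m)) : Prop where
  rel : ∀ j k, 2 * ρ j * ρ k + (if j ∈ s then P j k else 0) + (if k ∈ s then P k j else 0) = 0

section

variable {P : Matrix (Fin m) (Fin m) F} {ρ : Fin m → F} {s : Finset (Fin m)}

theorem FormData.rho (h : FormData P ρ s) (h2 : (2 : F) ≠ 0) {j : Fin m} (hj : j ∉ s) : ρ j = 0 := by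
  have h1 := h.rel j j
  simp only [hj, if_false, add_zero] at h1
  have h3 : 2 * ρ j ^ 2 = 0 := by linear_combination h1
  have h4 := (mul_eq_zero.1 h3).resolve_left h2
  exact pow_eq_zero_iff (two_ne_zero) |>.1 h4

theorem FormData.P0 (h : FormData P ρ s) (h2 : (2 : F) ≠ 0) {j k : Fin m} (hj : j ∈ s) (hk : k ∉ s) : P j k = 0 := by
  have h1 := h.rel j k
  simp only [hj, hk, if_true, if_false, add_zero, h.rho h2 hk, mul_zero, zero_add] at h1
  exact h1

theorem FormData.Ps (h : FormData P ρ s) {j k : Fin m} (hj : j ∈ s) (hk : k ∈ s) : P j k + P k j = -2 * ρ j * ρ k := by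
  have h1 := h.rel j k
  simp only [hj, hk, if_true] at h1
  linear_combination h1

/-- Every form is attained. -/
theorem FormData.exists_params (h : FormData P ρ s) (h2 : (2 : F) ≠ 0) (δ : Fin m → F) (J : Matrix (Fin m) (Fin m) F) :
    ∃ (b : Fin m → F) (A' : Matrix (Fin m) (Fin m) F), IsAltM A' ∧
      ∀ i j, P i j - 2 * b i * ρ j + (if j ∈ s then A' i j - b i * b j else 0) = formI P s δ J i j := by
  classical
  let b : Fin m → F := fun i => if i ∈ s then δ i - ρ i else 0
  have hb0 : ∀ i, i ∉ s → b i = 0 := fun i hi => if_neg hi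
  have hb1 : ∀ i, i ∈ s → b i = δ i - ρ i := fun i hi => if_pos hi
  let A' : Matrix (Fin m) (Fin m) F := fun i j =>
    if i ∈ s then
      if j ∈ s then
        if i < j then -(P i j - 2 * b i * ρ j - b i * b j)
        else if i = j then 0 else P j i - 2 * b j * ρ i - b j * b i
      else -(J j i - P j i + 2 * b j * ρ i + b j * b i)
    else
      if j ∈ s then J i j - P i j + 2 * b i * ρ j + b i * b j else 0
  have hd : ∀ i, A' i i = 0 := by
    intro i
    simp only [A']
    by_cases hi : i ∈ s <;> simp [hi]
  have hskew : ∀ i j, A' i j = - A' j i := by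
    intro i j
    simp only [A']
    by_cases hi : i ∈ s <;> by_cases hj : j ∈ s
    · simp only [hi, hj, if_true, if_false]
      rcases lt_trichotomy i j with hij | hij | hij
      · simp only [hij, if_true, not_lt_of_gt hij, if_false, hij.ne, hij.ne', neg_neg]
        try ring
      · subst hij
        simp
      · simp only [hij, if_true, not_lt_of_gt hij, if_false, hij.ne, hij.ne']
        try simp
    · simp [hi, hj]
    · simp [hi, hj]
    · simp [hi, hj]
  refine ⟨b, A', isAltM_of_entries hd hskew, ?_⟩
  intro i j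
  simp only [formI]
  by_cases hj : j ∈ s
  · by_cases hi : i ∈ s
    · simp only [hj, hi, not_true, if_true, if_false, A']
      rcases lt_trichotomy i j with hij | hij | hij
      · simp only [hij, if_true]
        ring
      · subst hij
        simp only [lt_irrefl, if_false, if_true]
        have h3 := h.Ps hi hi
        have h4 : P i i = -ρ i ^ 2 := mul_left_cancel₀ h2 (by linear_combination h3)
        rw [hb1 i hi]
        linear_combination h4
      · simp only [not_lt_of_gt hij, if_false, hij.ne']
        have h3 := h.Ps hi hj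
        rw [hb1 i hi, hb1 j hj]
        linear_combination h3
    · simp only [hj, hi, not_true, not_false_iff, if_true, if_false, A', hb0 i hi]
      ring
  · simp only [hj, not_false_iff, if_true, if_false, h.rho h2 hj]
    ring

/-- The determinant of the form. -/
theorem FormData.det_formI (h : FormData P ρ s) (h2 : (2 : F) ≠ 0) (δ : Fin m → F) (J : Matrix (Fin m) (Fin m) F) :
    (formI P s δ J).det = (∏ i ∈ s, (-(δ i) ^ 2)) *
      (toSquareBlockProp P (fun i => ¬ i ∈ s)).det := by
  classical
  have hz : ∀ i, i ∈ s → ∀ j, ¬ j ∈ s → formI P s δ J i j = 0 := by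
    intro i hi j hj
    simp only [formI, hj, not_false_iff, if_true]
    exact h.P0 h2 hi hj
  rw [twoBlockTriangular_det' _ (fun i => i ∈ s) hz]
  congr 1
  · refine (@det_of_isLowerTriangular {i // i ∈ s} F _ _ (Subtype.fintype _) _ _ ?_).trans ?_
    · intro i j hij
      have hij' : (i : Fin m) < j := hij
      simp [toSquareBlockProp, formI, i.2, j.2, hij']
    · rw [Finset.prod_subtype s (fun _ => Iff.rfl) (fun i => (-(δ i) ^ 2))]
      refine Finset.prod_congr rfl fun i _ => ?_
      simp [toSquareBlockProp, formI, i.2]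
  · congr 1
    ext i j
    simp [toSquareBlockProp, formI, j.2]

/-- Injectivity of the form. -/
theorem FormData.mulVec_formI_eq_zero (h : FormData P ρ s) (h2 : (2 : F) ≠ 0) {δ : Fin m → F}
    (hδ : ∀ i ∈ s, δ i ≠ 0) (J : Matrix (Fin m) (Fin m) F) {y : Fin m → F}
    (hy : formI P s δ J *ᵥ y = 0) : (∀ i ∈ s, y i = 0) ∧ P *ᵥ y = 0 := by
  classical
  have hs : ∀ i ∈ s, y i = 0 := by
    by_contra hcon
    push Not at hcon
    obtain ⟨i₁, hi₁, hne⟩ := hcon
    let T := s.filter (fun i => y i ≠ 0)
    have hT : T.Nonempty := ⟨i₁, Finset.mem_filter.2 ⟨hi₁, hne⟩⟩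
    let i₀ := T.min' hT
    have hi₀ : i₀ ∈ T := T.min'_mem hT
    have his : i₀ ∈ s := (Finset.mem_filter.1 hi₀).1
    have hy0 : y i₀ ≠ 0 := (Finset.mem_filter.1 hi₀).2
    have hmin : ∀ j ∈ s, j < i₀ → y j = 0 := by
      intro j hj hlt
      by_contra hne'
      have : j ∈ T := Finset.mem_filter.2 ⟨hj, hne'⟩
      exact absurd (T.min'_le j this) (not_le_of_gt hlt)
    have h1 := congrFun hy i₀
    simp only [mulVec, dotProduct, Pi.zero_apply] at h1
    rw [Finset.sum_eq_single i₀] at h1
    · simp only [formI, his, not_true, if_false, lt_irrefl, if_true] at h1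
      have h3 := (mul_eq_zero.1 h1).resolve_right hy0
      exact hδ i₀ his (by
        have : δ i₀ ^ 2 = 0 := by linear_combination -h3
        exact pow_eq_zero_iff two_ne_zero |>.1 this)
    · intro j _ hj
      by_cases hjs : j ∈ s
      · rcases lt_or_gt_of_ne hj with hlt | hlt
        · rw [hmin j hjs hlt, mul_zero]
        · simp only [formI, hjs, his, not_true, if_false, hlt, if_true, zero_mul]
      · simp only [formI, hjs, not_false_iff, if_true]
        rw [h.P0 h2 his hjs, zero_mul]
    · intro h'
      exact absurd (Finset.mem_univ _) h'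
  refine ⟨hs, ?_⟩
  ext i
  have h1 := congrFun hy i
  simp only [mulVec, dotProduct, Pi.zero_apply] at h1 ⊢
  rw [← h1]
  refine Finset.sum_congr rfl fun j _ => ?_
  by_cases hjs : j ∈ s
  · rw [hs j hjs, mul_zero, mul_zero]
  · simp only [formI, hjs, not_false_iff, if_true]

/-- Two forms with the same determinant and a singular nonzero difference. -/
theorem FormData.diff_formI (h2 : (2 : F) ≠ 0) (hm : 2 ≤ m) (hs : s.Nonempty) {δ : Fin m → F}
    (hδ : ∀ i ∈ s, δ i ≠ 0) :
    let j₀ := s.min' hs
    let δ' := Function.update δ j₀ (- δ j₀)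
    let J' : Matrix (Fin m) (Fin m) F := fun _ j => if j = j₀ then 1 else 0
    formI P s δ 0 ≠ formI P s δ' J' ∧ (formI P s δ 0 - formI P s δ' J').det = 0 := by
  classical
  intro j₀ δ' J'
  have hj₀ : j₀ ∈ s := s.min'_mem hs
  have hmin : ∀ j ∈ s, j₀ ≤ j := fun j hj => s.min'_le j hj
  have hδ'1 : δ' j₀ = - δ j₀ := by simp [δ']
  have hδ'2 : ∀ j, j ≠ j₀ → δ' j = δ j := fun j hj => by simp [δ', hj]
  haveI : NeZero m := ⟨by omega⟩
  constructor
  · -- an index different from the minimum
    obtain ⟨i, hi⟩ : ∃ i : Fin m, i ≠ j₀ := by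
      by_contra hcon
      push Not at hcon
      have h3 := hcon ⟨0, by omega⟩
      have h4 := hcon ⟨1, by omega⟩
      have : (⟨0, by omega⟩ : Fin m) = ⟨1, by omega⟩ := h3.trans h4.symm
      simp [Fin.ext_iff] at this
    intro heq
    have h3 := congrFun (congrFun heq i) j₀
    by_cases his : i ∈ s
    · have hlt : j₀ < i := lt_of_le_of_ne (hmin i his) (Ne.symm hi)
      simp only [formI, hj₀, his, not_true, if_false, not_lt_of_gt hlt, hi, hδ'1, hδ'2 i hi] at h3
      have h4 : 4 * (δ i * δ j₀) = 0 := by linear_combination -h3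
      have h5 : (4 : F) ≠ 0 := by
        have : (4 : F) = 2 * 2 := by norm_num
        rw [this]
        exact mul_ne_zero h2 h2
      rcases mul_eq_zero.1 ((mul_eq_zero.1 h4).resolve_left h5) with h6 | h6
      · exact hδ i his h6
      · exact hδ j₀ hj₀ h6
    · simp only [formI, hj₀, his, not_true, not_false_iff, if_false, if_true, J'] at h3
      exact zero_ne_one h3
  · obtain ⟨j, hj⟩ : ∃ j : Fin m, j ≠ j₀ := by
      by_contra hcon
      push Not at hcon
      have h3 := hcon ⟨0, by omega⟩
      have h4 := hcon ⟨1, by omega⟩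
      have : (⟨0, by omega⟩ : Fin m) = ⟨1, by omega⟩ := h3.trans h4.symm
      simp [Fin.ext_iff] at this
    apply det_eq_zero_of_column_eq_zero j
    intro i
    rw [Matrix.sub_apply, sub_eq_zero]
    by_cases hjs : j ∈ s
    · by_cases his : i ∈ s
      · simp only [formI, hjs, his, not_true, if_false]
        rcases lt_trichotomy i j with hlt | hlt | hlt
        · simp only [hlt, if_true]
        · subst hlt
          simp only [lt_irrefl, if_false, if_true, hδ'2 i hj]
        · simp only [not_lt_of_gt hlt, if_false, hlt.ne', hδ'2 j hj]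
          have hi : i ≠ j₀ := by
            intro h3
            rw [h3] at hlt
            exact absurd (hmin j hjs) (not_le_of_gt hlt)
          rw [hδ'2 i hi]
      · simp only [formI, hjs, his, not_true, not_false_iff, if_false, if_true, J', hj]
        rfl
    · simp only [formI, hjs, not_false_iff, if_true]

end

end Cfsg.Agent.Lib.OreOmega
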