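import Mathlib
import Cfsg.Agent.Lib.OreOmega.Cell
import Cfsg.Agent.Lib.OreOmega.Form

/-!
# Conjugating by `QL` to the prescribed form of the `T → T` block
-/

set_option autoImplicit false
set_option linter.unusedSectionVars false
set_option linter.unusedSimpArgs false
set_option linter.unusedVariables false

namespace Cfsg.Agent.Lib.OreOmega

open Matrix QuadraticMap Module
open Cfsg.Agent.Lib.Classical.Orth.Basic
open Cfsg.Agent.Lib.Classical.Orth.Models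
open Cfsg.Agent.Lib.Classical.Orth.Adjust

variable {F : Type*} [Field F] {m : ℕ}

/-- The diagonal idempotent of a set of indices. -/
def dlt (s : Finset (Fin m)) : Fin m → F := fun i => if i ∈ s then 1 else 0

theorem det_list_transvec (L : List (TransvectionStruct (Fin m) F)) : (L.map TransvectionStruct.toMatrix).prod.det = 1 := by
  induction L with
  | nil => simp
  | cons t L ih =>
    simp only [List.map_cons, List.prod_cons, det_mul, ih, TransvectionStruct.det, mul_one]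

/-- The rank normal form. -/
theorem exists_rank_form (R : Matrix (Fin m) (Fin m) F) : ∃ (E Cm : GL (Fin m) F) (s : Finset (Fin m)),
    (E : Matrix (Fin m) (Fin m) F) * R * (Cm : Matrix (Fin m) (Fin m) F) = diagonal (dlt s) := by
  classical
  obtain ⟨L, L', d, hd⟩ := Matrix.Pivot.exists_list_transvec_mul_mul_list_transvec_eq_diagonal R
  let s : Finset (Fin m) := Finset.univ.filter (fun i => d i ≠ 0)
  let d' : Fin m → F := fun i => if d i = 0 then 1 else (d i)⁻¹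
  have hd' : (diagonal d').det ≠ 0 := by
    rw [det_diagonal]
    refine Finset.prod_ne_zero_iff.2 fun i _ => ?_
    simp only [d']
    split_ifs with h
    · exact one_ne_zero
    · exact inv_ne_zero h
  refine ⟨Matrix.GeneralLinearGroup.mkOfDetNeZero _ (by
      rw [det_list_transvec]
      exact one_ne_zero : ((L.map TransvectionStruct.toMatrix).prod).det ≠ 0),
    Matrix.GeneralLinearGroup.mkOfDetNeZero ((L'.map TransvectionStruct.toMatrix).prod * diagonal d') (by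
      rw [det_mul, det_list_transvec, one_mul]
      exact hd'), s, ?_⟩
  show (L.map TransvectionStruct.toMatrix).prod * R * ((L'.map TransvectionStruct.toMatrix).prod * diagonal d') = _
  rw [← mul_assoc, hd, diagonal_mul_diagonal]
  congr 1
  ext i
  simp only [dlt, s, d', Finset.mem_filter, Finset.mem_univ, true_and]
  by_cases h : d i = 0
  · simp [h]
  · simp [h]

section VVe

variable (h2 : (2 : F) ≠ 0)

/-- The unipotent elements of the opposite group. -/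
noncomputable def VVe (c : Fin m → F) (A : Matrix (Fin m) (Fin m) F) (hA : IsAltM A) : OO m F :=
  tau h2 * UU h2 c A hA * tau h2

theorem VVe_mem_QL (c : Fin m → F) (A : Matrix (Fin m) (Fin m) F) (hA : IsAltM A) : VVe h2 c A hA ∈ QL m F :=
  tau_conj_mem_QL h2 (UU_mem_QU h2 c A hA)

theorem act_VVe (c : Fin m → F) (A : Matrix (Fin m) (Fin m) F) (hA : IsAltM A) (v : VV m F) :
    act (VVe h2 c A hA) v = mkV (zc v + c ⬝ᵥ xc v) (xc v)
      (yc v + A *ᵥ xc v - (c ⬝ᵥ xc v) • c - (2 * zc v) • c) := by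
  unfold VVe
  rw [act_mul, act_mul]
  have e : act (tau h2) v = mkV (zc v) (yc v) (xc v) := act_tau h2 v
  rw [e, act_UU, act_tau]
  rfl

theorem blkD_conj (g : OO m F) (c : Fin m → F) (A : Matrix (Fin m) (Fin m) F) (hA : IsAltM A) (y : Fin m → F) :
    blkD (VVe h2 c A hA * g * (VVe h2 c A hA)⁻¹) *ᵥ y =
      blkD g *ᵥ y + A *ᵥ (blkR g *ᵥ y) - (c ⬝ᵥ (blkR g *ᵥ y)) • c - (2 * (blkC g ⬝ᵥ y)) • c := by
  have h1 := act_T (VVe h2 c A hA * g * (VVe h2 c A hA)⁻¹) y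
  have h3 : (VVe h2 c A hA)⁻¹ ∈ QL m F := (QL m F).inv_mem (VVe_mem_QL h2 c A hA)
  rw [act_mul, act_mul, h3.1, act_T, act_VVe] at h1
  have h4 := congrArg yc h1
  simp only [yc_mkV, xc_mkV, zc_mkV] at h4
  exact h4.symm

end VVe

section Data

variable (h2 : (2 : F) ≠ 0)

variable {g : OO m F} {E Cm : GL (Fin m) F} {s : Finset (Fin m)}

/-- The block `P`. -/
noncomputable def blkP (g : OO m F) (E Cm : GL (Fin m) F) : Matrix (Fin m) (Fin m) F :=
  ((E⁻¹ : GL (Fin m) F) : Matrix (Fin m) (Fin m) F)ᵀ * blkD g * (Cm : Matrix (Fin m) (Fin m) F)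

/-- The row `ρ`. -/
noncomputable def blkRho (g : OO m F) (Cm : GL (Fin m) F) : Fin m → F :=
  (Cm : Matrix (Fin m) (Fin m) F)ᵀ *ᵥ blkC g

theorem E_inv_mul (E : GL (Fin m) F) : (E : Matrix (Fin m) (Fin m) F) * ((E⁻¹ : GL (Fin m) F) : Matrix (Fin m) (Fin m) F) = 1 := by
  rw [← Units.val_mul, mul_inv_cancel]
  rfl

theorem inv_E_mul (E : GL (Fin m) F) : ((E⁻¹ : GL (Fin m) F) : Matrix (Fin m) (Fin m) F) * (E : Matrix (Fin m) (Fin m) F) = 1 := by
  rw [← Units.val_mul, inv_mul_cancel]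
  rfl

theorem rho_dot (g : OO m F) (Cm : GL (Fin m) F) (a : Fin m → F) :
    blkC g ⬝ᵥ ((Cm : Matrix (Fin m) (Fin m) F) *ᵥ a) = blkRho g Cm ⬝ᵥ a := by
  rw [blkRho, mulVec_transpose, dotProduct_mulVec]

theorem R_Cm (hΔ : (E : Matrix (Fin m) (Fin m) F) * blkR g * (Cm : Matrix (Fin m) (Fin m) F) = diagonal (dlt s)) (a : Fin m → F) :
    blkR g *ᵥ ((Cm : Matrix (Fin m) (Fin m) F) *ᵥ a) = ((E⁻¹ : GL (Fin m) F) : Matrix (Fin m) (Fin m) F) *ᵥ (diagonal (dlt s) *ᵥ a) := by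
  rw [← hΔ, mulVec_mulVec, mulVec_mulVec, mul_assoc, ← mul_assoc _ (E : Matrix (Fin m) (Fin m) F), inv_E_mul, one_mul]

theorem D_Cm (g : OO m F) (E Cm : GL (Fin m) F) (a : Fin m → F) :
    blkD g *ᵥ ((Cm : Matrix (Fin m) (Fin m) F) *ᵥ a) = (E : Matrix (Fin m) (Fin m) F)ᵀ *ᵥ (blkP g E Cm *ᵥ a) := by
  rw [blkP, mulVec_mulVec, mulVec_mulVec, ← mul_assoc, ← mul_assoc, ← transpose_mul, inv_E_mul, transpose_one, one_mul]

theorem dlt_mulVec_single (s : Finset (Fin m)) (j : Fin m) (l : Fin m → F) :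
    (diagonal (dlt s) *ᵥ Pi.single j 1) ⬝ᵥ l = (if j ∈ s then l j else 0) := by
  classical
  rw [mulVec_single]
  by_cases hj : j ∈ s
  · simp only [hj, if_true]
    simp only [dotProduct]
    rw [Finset.sum_eq_single j]
    · simp [diagonal, dlt, hj]
    · intro b _ hb
      simp [diagonal, dlt, hb]
    · simp
  · simp only [hj, if_false]
    simp only [dotProduct]
    refine Finset.sum_eq_zero fun b _ => ?_
    by_cases hb : b = j
    · subst hb
      simp [diagonal, dlt, hj]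
    · simp [diagonal, dlt, hb]

theorem dot_E (E : GL (Fin m) F) (a b : Fin m → F) :
    (((E⁻¹ : GL (Fin m) F) : Matrix (Fin m) (Fin m) F) *ᵥ a) ⬝ᵥ ((E : Matrix (Fin m) (Fin m) F)ᵀ *ᵥ b) = a ⬝ᵥ b := by
  rw [dotProduct_mulVec, vecMul_transpose, mulVec_mulVec, E_inv_mul, one_mulVec]

/-- The relations of the block. -/
theorem formData_of (hΔ : (E : Matrix (Fin m) (Fin m) F) * blkR g * (Cm : Matrix (Fin m) (Fin m) F) = diagonal (dlt s)) :
    FormData (blkP g E Cm) (blkRho g Cm) s := by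
  refine ⟨fun j k => ?_⟩
  have h1 := blk_polar g ((Cm : Matrix (Fin m) (Fin m) F) *ᵥ Pi.single j 1) ((Cm : Matrix (Fin m) (Fin m) F) *ᵥ Pi.single k 1)
  rw [rho_dot, rho_dot, R_Cm hΔ, R_Cm hΔ, D_Cm g E Cm, D_Cm g E Cm, dot_E, dot_E, dlt_mulVec_single, dlt_mulVec_single] at h1
  simpa [mulVec_single, dotProduct_single] using h1

include h2 in
/-- The kernel of the block. -/
theorem ker_of (hΔ : (E : Matrix (Fin m) (Fin m) F) * blkR g * (Cm : Matrix (Fin m) (Fin m) F) = diagonal (dlt s))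
    {y : Fin m → F} (hy : ∀ i ∈ s, y i = 0) (hP : blkP g E Cm *ᵥ y = 0) : y = 0 := by
  classical
  have hfd := formData_of (g := g) hΔ
  have h1 := act_T g ((Cm : Matrix (Fin m) (Fin m) F) *ᵥ y)
  have hΔy : diagonal (dlt s) *ᵥ y = 0 := by
    ext i
    rw [mulVec_diagonal]
    by_cases hi : i ∈ s
    · simp [hy i hi]
    · simp [dlt, hi]
  have hρ : blkRho g Cm ⬝ᵥ y = 0 := by
    refine Finset.sum_eq_zero fun i _ => ?_
    by_cases hi : i ∈ s
    · simp [hy i hi]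
    · simp [hfd.rho h2 hi]
  rw [rho_dot, R_Cm hΔ, D_Cm g E Cm, hΔy, hP, hρ, mulVec_zero, mulVec_zero] at h1
  have h3 : mkV 0 0 ((Cm : Matrix (Fin m) (Fin m) F) *ᵥ y) = (0 : VV m F) := by
    have h4 : act g (act g⁻¹ (0 : VV m F)) = 0 := act_act_inv g 0
    have h5 : mkV (0 : F) (0 : Fin m → F) 0 = (0 : VV m F) := by
      apply vext <;> rfl
    rw [h5] at h1
    have h6 := congrArg (act g⁻¹) h1
    rw [act_inv_act] at h6
    rw [h6]
    exact act_zero _
  have h7 := congrArg yc h3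
  simp only [yc_mkV, yc_zero] at h7
  have h8 := congrArg (fun v => ((Cm⁻¹ : GL (Fin m) F) : Matrix (Fin m) (Fin m) F) *ᵥ v) h7
  simpa [mulVec_mulVec, inv_E_mul] using h8

/-- The form of the element, given the parameters. -/
theorem mulVec_form_eq {P : Matrix (Fin m) (Fin m) F} {ρ b : Fin m → F} {A' I : Matrix (Fin m) (Fin m) F}
    (hI : ∀ i j, P i j - 2 * b i * ρ j + (if j ∈ s then A' i j - b i * b j else 0) = I i j) (a : Fin m → F) :
    I *ᵥ a = P *ᵥ a + A' *ᵥ (diagonal (dlt s) *ᵥ a) - (b ⬝ᵥ (diagonal (dlt s) *ᵥ a)) • b - (2 * (ρ ⬝ᵥ a)) • b := by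
  classical
  have hd : diagonal (dlt s) *ᵥ a = fun j => dlt s j * a j := by
    ext j
    rw [mulVec_diagonal]
  rw [hd]
  ext i
  simp only [Pi.add_apply, Pi.sub_apply, Pi.smul_apply, smul_eq_mul]
  simp only [mulVec, dotProduct]
  simp only [Finset.mul_sum, Finset.sum_mul]
  rw [← Finset.sum_add_distrib, ← Finset.sum_sub_distrib, ← Finset.sum_sub_distrib]
  refine Finset.sum_congr rfl fun j _ => ?_
  rw [← hI]
  by_cases hj : j ∈ s
  · simp only [hj, if_true, dlt]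
    ring
  · simp only [hj, if_false, dlt]
    ring

include h2 in
/-- **The conjugate with the prescribed block.** -/
theorem exists_conj_form (hΔ : (E : Matrix (Fin m) (Fin m) F) * blkR g * (Cm : Matrix (Fin m) (Fin m) F) = diagonal (dlt s))
    (δ : Fin m → F) (J : Matrix (Fin m) (Fin m) F) :
    ∃ h ∈ QL m F, blkD (h * g * h⁻¹) =
      (E : Matrix (Fin m) (Fin m) F)ᵀ * formI (blkP g E Cm) s δ J * ((Cm⁻¹ : GL (Fin m) F) : Matrix (Fin m) (Fin m) F) := by
  classical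
  obtain ⟨b, A', hA', hI⟩ := (formData_of (g := g) hΔ).exists_params h2 δ J
  set EE : Matrix (Fin m) (Fin m) F := (E : Matrix (Fin m) (Fin m) F) with hEE
  let c : Fin m → F := EEᵀ *ᵥ b
  let A : Matrix (Fin m) (Fin m) F := EEᵀ * A' * EE
  have hAy : ∀ y, A *ᵥ y = EEᵀ *ᵥ (A' *ᵥ (EE *ᵥ y)) := by
    intro y
    simp only [A, mulVec_mulVec, mul_assoc]
  have hAlt : IsAltM A := by
    intro y
    rw [hAy, mulVec_transpose, ← dotProduct_mulVec]
    exact hA' _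
  refine ⟨VVe h2 c A hAlt, VVe_mem_QL h2 c A hAlt, ?_⟩
  have key : ∀ a : Fin m → F, blkD (VVe h2 c A hAlt * g * (VVe h2 c A hAlt)⁻¹) *ᵥ ((Cm : Matrix (Fin m) (Fin m) F) *ᵥ a) =
      (EEᵀ * formI (blkP g E Cm) s δ J * ((Cm⁻¹ : GL (Fin m) F) : Matrix (Fin m) (Fin m) F)) *ᵥ ((Cm : Matrix (Fin m) (Fin m) F) *ᵥ a) := by
    intro a
    have hR : (EEᵀ * formI (blkP g E Cm) s δ J * ((Cm⁻¹ : GL (Fin m) F) : Matrix (Fin m) (Fin m) F)) *ᵥ ((Cm : Matrix (Fin m) (Fin m) F) *ᵥ a) =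
        EEᵀ *ᵥ (formI (blkP g E Cm) s δ J *ᵥ a) := by
      rw [mulVec_mulVec, mulVec_mulVec, mul_assoc, mul_assoc, inv_E_mul, mul_one]
    rw [blkD_conj, hR, mulVec_form_eq hI a, D_Cm g E Cm, R_Cm hΔ, rho_dot]
    set w := diagonal (dlt s) *ᵥ a with hw
    have hEw : EE *ᵥ (((E⁻¹ : GL (Fin m) F) : Matrix (Fin m) (Fin m) F) *ᵥ w) = w := by
      rw [mulVec_mulVec, hEE, E_inv_mul, one_mulVec]
    have hc : c ⬝ᵥ (((E⁻¹ : GL (Fin m) F) : Matrix (Fin m) (Fin m) F) *ᵥ w) = b ⬝ᵥ w := by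
      rw [dotProduct_comm, dot_E, dotProduct_comm]
    rw [hAy, hEw, hc, mulVec_sub, mulVec_sub, mulVec_add, mulVec_smul, mulVec_smul]
  apply Matrix.ext_of_mulVec_single
  intro j
  have h3 := key (((Cm⁻¹ : GL (Fin m) F) : Matrix (Fin m) (Fin m) F) *ᵥ Pi.single j 1)
  rwa [mulVec_mulVec (Pi.single j 1) (Cm : Matrix (Fin m) (Fin m) F), E_inv_mul, one_mulVec] at h3

include h2 in
/-- **The normal form.** -/
theorem exists_normal (hm : 2 ≤ m) (hR : blkR g ≠ 0)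
    (hsq : ∀ h ∈ QL m F, ∀ D : GL (Fin m) F, blkD (h * g * h⁻¹) = (D : Matrix (Fin m) (Fin m) F) →
      IsSquare (D : Matrix (Fin m) (Fin m) F).det) :
    ∃ h ∈ QL m F, ∃ D : GL (Fin m) F, blkD (h * g * h⁻¹) = (D : Matrix (Fin m) (Fin m) F) ∧
      (D : Matrix (Fin m) (Fin m) F).det = 1 ∧ ¬ ∃ a : F, (D : Matrix (Fin m) (Fin m) F) = a • 1 := by
  classical
  obtain ⟨E, Cm, s, hΔ⟩ := exists_rank_form (blkR g)
  have hs : s.Nonempty := by
    by_contra hne
    rw [Finset.not_nonempty_iff_eq_empty] at hne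
    apply hR
    have h0 : diagonal (dlt (∅ : Finset (Fin m))) = (0 : Matrix (Fin m) (Fin m) F) := by
      ext i j
      simp [diagonal, dlt]
    rw [hne, h0] at hΔ
    have h1 : blkR g = ((E⁻¹ : GL (Fin m) F) : Matrix (Fin m) (Fin m) F) *
        ((E : Matrix (Fin m) (Fin m) F) * blkR g * (Cm : Matrix (Fin m) (Fin m) F)) *
        ((Cm⁻¹ : GL (Fin m) F) : Matrix (Fin m) (Fin m) F) := by
      calc blkR g = (((E⁻¹ : GL (Fin m) F) : Matrix (Fin m) (Fin m) F) * (E : Matrix (Fin m) (Fin m) F)) * blkR g *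
            ((Cm : Matrix (Fin m) (Fin m) F) * ((Cm⁻¹ : GL (Fin m) F) : Matrix (Fin m) (Fin m) F)) := by
            rw [inv_E_mul, E_inv_mul, one_mul, mul_one]
        _ = _ := by simp only [mul_assoc]
    rw [h1, hΔ]
    simp
  have fd := formData_of (g := g) hΔ
  set P := blkP g E Cm with hP
  set EE : Matrix (Fin m) (Fin m) F := (E : Matrix (Fin m) (Fin m) F)ᵀ with hEE
  set Ci : Matrix (Fin m) (Fin m) F := ((Cm⁻¹ : GL (Fin m) F) : Matrix (Fin m) (Fin m) F) with hCi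
  have hEE0 : EE.det ≠ 0 := by
    rw [hEE, det_transpose]
    exact isUnit_iff_ne_zero.1 ((Matrix.isUnit_iff_isUnit_det _).1 E.isUnit)
  have hCi0 : Ci.det ≠ 0 :=
    isUnit_iff_ne_zero.1 ((Matrix.isUnit_iff_isUnit_det _).1 (Cm⁻¹).isUnit)
  have hIne : ∀ (δ : Fin m → F) (J : Matrix (Fin m) (Fin m) F), (∀ i ∈ s, δ i ≠ 0) → (formI P s δ J).det ≠ 0 := by
    intro δ J hδ h0
    obtain ⟨y, hy, hy0⟩ := Matrix.exists_mulVec_eq_zero_iff.2 h0
    obtain ⟨h3, h4⟩ := fd.mulVec_formI_eq_zero h2 hδ J hy0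
    exact hy (ker_of h2 hΔ h3 h4)
  have hDne : ∀ (δ : Fin m → F) (J : Matrix (Fin m) (Fin m) F), (∀ i ∈ s, δ i ≠ 0) → (EE * formI P s δ J * Ci).det ≠ 0 := by
    intro δ J hδ
    rw [det_mul, det_mul]
    exact mul_ne_zero (mul_ne_zero hEE0 (hIne δ J hδ)) hCi0
  -- the first form
  let δ₀ : Fin m → F := fun _ => 1
  obtain ⟨h₀, hh₀, hD₀⟩ := exists_conj_form h2 hΔ δ₀ 0
  have hsq₀ := hsq h₀ hh₀ (Matrix.GeneralLinearGroup.mkOfDetNeZero _ (hDne δ₀ 0 (fun _ _ => one_ne_zero))) hD₀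
  obtain ⟨t, ht⟩ := hsq₀
  have ht' : (EE * formI P s δ₀ 0 * Ci).det = t * t := ht
  have ht0 : t ≠ 0 := by
    rintro rfl
    exact hDne δ₀ 0 (fun _ _ => one_ne_zero) (by rw [ht', mul_zero])
  set j₀ := s.min' hs with hj₀def
  have hj₀ : j₀ ∈ s := s.min'_mem hs
  let δ₁ : Fin m → F := Function.update δ₀ j₀ t⁻¹
  have hδ₁ : ∀ i ∈ s, δ₁ i ≠ 0 := by
    intro i _
    by_cases hi : i = j₀
    · subst hi
      simp [δ₁, ht0]
    · simp [δ₁, hi, δ₀]
  obtain ⟨h₁, hh₁, hD₁⟩ := exists_conj_form h2 hΔ δ₁ 0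
  have hdet₁ : (EE * formI P s δ₁ 0 * Ci).det = 1 := by
    have h3 : (∏ i ∈ s, (-(δ₁ i) ^ 2)) = (t⁻¹) ^ 2 * ∏ i ∈ s, (-(δ₀ i) ^ 2) := by
      rw [← Finset.mul_prod_erase s _ hj₀, ← Finset.mul_prod_erase s (fun i => (-(δ₀ i) ^ 2)) hj₀, ← mul_assoc]
      congr 1
      · simp [δ₁, δ₀]
      · refine Finset.prod_congr rfl fun i hi => ?_
        have hne : i ≠ j₀ := (Finset.mem_erase.1 hi).1
        simp [δ₁, hne]
    have h4 : (formI P s δ₁ 0).det = (t⁻¹) ^ 2 * (formI P s δ₀ 0).det := by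
      rw [fd.det_formI h2, fd.det_formI h2, h3, mul_assoc]
    rw [det_mul, det_mul, h4]
    have h5 : EE.det * (formI P s δ₀ 0).det * Ci.det = t * t := by
      rw [← ht', det_mul, det_mul]
    calc EE.det * ((t⁻¹) ^ 2 * (formI P s δ₀ 0).det) * Ci.det
        = (t⁻¹) ^ 2 * (EE.det * (formI P s δ₀ 0).det * Ci.det) := by ring
      _ = 1 := by
        rw [h5]
        field_simp
  -- the second form
  obtain ⟨hne, hsing⟩ := FormData.diff_formI (P := P) h2 hm hs hδ₁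
  set δ₂ := Function.update δ₁ (s.min' hs) (- δ₁ (s.min' hs)) with hδ₂def
  set J₂ : Matrix (Fin m) (Fin m) F := fun _ j => if j = s.min' hs then 1 else 0 with hJ₂
  have hδ₂ : ∀ i ∈ s, δ₂ i ≠ 0 := by
    intro i his
    by_cases hi : i = j₀
    · rw [hi, hδ₂def, ← hj₀def]
      simp only [Function.update_self]
      exact neg_ne_zero.2 (hδ₁ _ hj₀)
    · rw [hδ₂def, ← hj₀def, Function.update_of_ne hi]
      exact hδ₁ i his
  have hdet₂ : (EE * formI P s δ₂ J₂ * Ci).det = 1 := by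
    rw [← hdet₁, det_mul, det_mul, det_mul, det_mul, fd.det_formI h2, fd.det_formI h2]
    congr 3
    refine Finset.prod_congr rfl fun i _ => ?_
    by_cases hi : i = j₀
    · rw [hi, hδ₂def, ← hj₀def]
      simp only [Function.update_self]
      ring
    · rw [hδ₂def, ← hj₀def, Function.update_of_ne hi]
  obtain ⟨h₂, hh₂, hD₂⟩ := exists_conj_form h2 hΔ δ₂ J₂
  have h10 : (1 : F) ≠ 0 := one_ne_zero
  by_cases hsc : ∃ a : F, (EE * formI P s δ₁ 0 * Ci) = a • 1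
  · refine ⟨h₂, hh₂, Matrix.GeneralLinearGroup.mkOfDetNeZero _ (by rw [hdet₂]; exact h10), hD₂, hdet₂, ?_⟩
    rintro ⟨b, hb⟩
    obtain ⟨a, ha⟩ := hsc
    have hb' : EE * formI P s δ₂ J₂ * Ci = b • 1 := hb
    have hdiff : EE * (formI P s δ₁ 0 - formI P s δ₂ J₂) * Ci = (a - b) • 1 := by
      rw [mul_sub, sub_mul, ha, hb', sub_smul]
    have hdet0 := congrArg Matrix.det hdiff
    rw [det_mul, det_mul, hsing, mul_zero, zero_mul, det_smul, det_one, mul_one, Fintype.card_fin] at hdet0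
    have hab : a - b = 0 := by
      by_contra hc
      exact pow_ne_zero m hc hdet0.symm
    rw [hab, zero_smul] at hdiff
    apply hne
    have h11 : formI P s δ₁ 0 - formI P s δ₂ J₂ = 0 := by
      have hEi : ((E : Matrix (Fin m) (Fin m) F)ᵀ)⁻¹ * EE = 1 := Matrix.nonsing_inv_mul _ (isUnit_iff_ne_zero.2 hEE0)
      have hCii : Ci * (Cm : Matrix (Fin m) (Fin m) F) = 1 := inv_E_mul Cm
      calc formI P s δ₁ 0 - formI P s δ₂ J₂
          = (((E : Matrix (Fin m) (Fin m) F)ᵀ)⁻¹ * EE) * (formI P s δ₁ 0 - formI P s δ₂ J₂) * (Ci * (Cm : Matrix (Fin m) (Fin m) F)) := by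
            rw [hEi, hCii, one_mul, mul_one]
        _ = ((E : Matrix (Fin m) (Fin m) F)ᵀ)⁻¹ * (EE * (formI P s δ₁ 0 - formI P s δ₂ J₂) * Ci) * (Cm : Matrix (Fin m) (Fin m) F) := by
            simp only [mul_assoc]
        _ = 0 := by rw [hdiff]; simp
    exact sub_eq_zero.1 h11
  · refine ⟨h₁, hh₁, Matrix.GeneralLinearGroup.mkOfDetNeZero _ (by rw [hdet₁]; exact h10), hD₁, hdet₁, ?_⟩
    rintro ⟨a, ha⟩
    exact hsc ⟨a, ha⟩

end Data

end Cfsg.Agent.Lib.OreOmega
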