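import Mathlib
import Cfsg.Agent.Lib.OreOmega.Cell
import Cfsg.Agent.Lib.Classical.Orth.Center

/-!
# An element moving the standard maximal singular subspace in a suitable conjugate
-/

set_option autoImplicit false
set_option linter.unusedSectionVars false
set_option linter.unusedSimpArgs false
set_option linter.unusedVariables false

namespace Cfsg.Agent.Lib.OreOmega

open Matrix QuadraticMap Module
open Cfsg.Agent.Lib.Classical.Orth.Basic
open Cfsg.Agent.Lib.Classical.Orth.Models
open Cfsg.Agent.Lib.Classical.Orth.Adjust
open Cfsg.Agent.Lib.Classical.Orth.Classes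
open Cfsg.Agent.Lib.Classical.Orth.Simple
open Cfsg.Agent.Lib.Classical.Orth.Center

section General

variable {ι : Type} [Fintype ι] [DecidableEq ι] {F : Type*} [Field F] [Finite F]
variable {Q : QuadraticForm F (ι → F)}

/-- Witt's theorem for independent families. -/
theorem exists_iso_family' (hnd : (polarBilin Q).Nondegenerate) {κ : Type} [Fintype κ] [DecidableEq κ] (b b' : κ → ι → F)
    (li : LinearIndependent F b) (li' : LinearIndependent F b')
    (hQ : ∀ t : κ → F, Q (∑ i, t i • b i) = Q (∑ i, t i • b' i)) :
    ∃ g : ↥(Cfsg.isometryGroup F (⇑Q)), ∀ i, act g (b i) = b' i := by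
  have h1 : Function.Injective (Fintype.linearCombination F b) := linearIndependent_iff_injective_fintypeLinearCombination.1 li
  have h2 : Function.Injective (Fintype.linearCombination F b') := linearIndependent_iff_injective_fintypeLinearCombination.1 li'
  let e₁ := LinearEquiv.ofInjective _ h1
  let e₂ := LinearEquiv.ofInjective _ h2
  obtain ⟨g, -, hg⟩ := exists_iso_of_witt hnd _ _ (e₁.symm.trans e₂) (by
    intro x
    obtain ⟨t, rfl⟩ := e₁.surjective x
    simp only [LinearEquiv.trans_apply, LinearEquiv.symm_apply_apply]
    show Q (Fintype.linearCombination F b' t) = Q (Fintype.linearCombination F b t)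
    simp only [Fintype.linearCombination_apply]
    exact (hQ t).symm)
  refine ⟨g, fun i => ?_⟩
  have h3 := hg (e₁ (Pi.single i 1))
  simp only [LinearEquiv.trans_apply, LinearEquiv.symm_apply_apply] at h3
  have h4 : ((e₁ (Pi.single i 1) : LinearMap.range (Fintype.linearCombination F b)) : ι → F) = b i := by
    show Fintype.linearCombination F b (Pi.single i 1) = b i
    simp [Fintype.linearCombination_apply_single]
  have h5 : ((e₂ (Pi.single i 1) : LinearMap.range (Fintype.linearCombination F b')) : ι → F) = b' i := by
    show Fintype.linearCombination F b' (Pi.single i 1) = b' i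
    simp [Fintype.linearCombination_apply_single]
  rw [h4, h5] at h3
  exact h3

/-- A vector with prescribed polar products, given independence. -/
theorem exists_polar_sep (hnd : (polarBilin Q).Nondegenerate) {z a : ι → F} (hout : a ∉ Submodule.span F {z}) :
    ∃ x, polar (⇑Q) z x = 0 ∧ polar (⇑Q) a x = 1 := by
  classical
  set B : LinearMap.BilinForm F (ι → F) := polarBilin Q with hB
  have hBnd : B.Nondegenerate := hnd
  have hsymm : B.IsSymm := ⟨fun x y => by
    simp only [hB, polarBilin_apply_apply, RingHom.id_apply]; exact polar_comm _ _ _⟩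
  have hrefl : B.IsRefl := hsymm.isRefl
  set Y : Submodule F (ι → F) := B.orthogonal (Submodule.span F {z}) with hY
  have hmemY : ∀ y, y ∈ Y ↔ polar (⇑Q) z y = 0 := by
    intro y
    constructor
    · intro h
      have h1 : B z y = 0 := h z (Submodule.mem_span_singleton_self z)
      rwa [hB, polarBilin_apply_apply] at h1
    · intro h
      refine LinearMap.BilinForm.mem_orthogonal_iff.2 (fun w hw => ?_)
      obtain ⟨t, rfl⟩ := Submodule.mem_span_singleton.1 hw
      rw [hB, polarBilin_apply_apply, polar_smul_left', h, mul_zero]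
  have horth : B.orthogonal Y = Submodule.span F {z} :=
    LinearMap.BilinForm.orthogonal_orthogonal hBnd hrefl _
  obtain ⟨x₀, hx₀, hx₀g⟩ : ∃ x ∈ Y, polar (⇑Q) a x ≠ 0 := by
    by_contra hcon
    push Not at hcon
    apply hout
    rw [← horth]
    refine LinearMap.BilinForm.mem_orthogonal_iff.2 (fun w hw => ?_)
    rw [hB, polarBilin_apply_apply, polar_comm]
    exact hcon w hw
  refine ⟨(polar (⇑Q) a x₀)⁻¹ • x₀, ?_, ?_⟩
  · rw [polar_smul_right', (hmemY x₀).1 hx₀, mul_zero]
  · rw [polar_smul_right']
    field_simp

end General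

variable {F : Type*} [Field F] [Fintype F] {m : ℕ}

/-- The vectors of `T`. -/
abbrev fV (m : ℕ) (F : Type*) [Field F] (j : Fin m) : VV m F := mkV 0 0 (Pi.single j 1)

theorem blkR_eq_polar (g : OO m F) (i j : Fin m) :
    blkR g i j = polar (⇑(oddForm m F)) (act g (fV m F j)) (fV m F i) := by
  rw [act_T, polar_mkV]
  simp [mulVec_single]

theorem blkR_conj (g k : OO m F) (i j : Fin m) :
    blkR (k⁻¹ * g * k) i j = polar (⇑(oddForm m F)) (act g (act k (fV m F j))) (act k (fV m F i)) := by
  rw [blkR_eq_polar, act_mul, act_mul, polar_act_left, inv_inv]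

/-- **Position.** -/
theorem exists_conj_R_ne (h2 : (2 : F) ≠ 0) (hm : 2 ≤ m) (g : OO m F) (hg : g ≠ 1) (hdet : (matO g).det = 1) :
    ∃ k : OO m F, blkR (k⁻¹ * g * k) ≠ 0 := by
  classical
  have hnd := oddForm_nondegenerate (F := F) h2 m
  have hcard : Fintype.card (II m) = 2 * m + 1 := by
    simp [II]
    ring
  have hn : 5 ≤ Fintype.card (II m) := by
    rw [hcard]
    omega
  have hnonempty : Nonempty (II m) := ⟨Sum.inl ()⟩
  have hone : (1 : F) ≠ -1 := by
    intro h4
    apply h2
    linear_combination h4
  -- a singular vector which is not an eigenvector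
  obtain ⟨z, hz, hQz, hout⟩ : ∃ z, z ≠ 0 ∧ oddForm m F z = 0 ∧ act g z ∉ Submodule.span F {z} := by
    by_contra hcon
    push Not at hcon
    have hfix : ∀ L : SingLine (oddForm m F), g • L = L := by
      intro L
      obtain ⟨z, hz, hQz, rfl⟩ := exists_line L
      apply Subtype.ext
      rw [coe_smul]
      apply gMap_eq_of_le
      intro x hx
      obtain ⟨t, rfl⟩ := Submodule.mem_span_singleton.1 hx
      rw [act_smul]
      exact Submodule.smul_mem _ _ (hcon z hz hQz)
    obtain ⟨a, ha⟩ := scalar_of_fix hnd hn hfix
    rcases scalar_eq_one_or_neg hnd hnonempty ha with h1 | h1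
    · apply hg
      apply ext_act
      intro x
      rw [ha, h1, one_smul, act_one]
    · have h3 : matO g = -1 := by
        apply Matrix.ext_of_mulVec_single
        intro j
        have := ha (Pi.single j 1)
        rw [h1] at this
        show matO g *ᵥ _ = (-1 : Matrix (II m) (II m) F) *ᵥ _
        refine this.trans ?_
        rw [neg_mulVec, one_mulVec, neg_one_smul]
      rw [h3, det_neg, det_one, hcard, Odd.neg_one_pow ⟨m, rfl⟩] at hdet
      apply hone
      linear_combination -hdet
  by_cases hc1 : polar (⇑(oddForm m F)) (act g z) z = 0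
  · -- two orthogonal singular vectors
    obtain ⟨w, hw1, hw2⟩ := exists_polar_sep hnd hout
    set a' := act g z with ha'
    have hQa' : oddForm m F a' = 0 := by rw [ha', Q_act, hQz]
    set b := w - (oddForm m F w) • a' with hb
    have hQb : oddForm m F b = 0 := by
      rw [hb, Q_sub, Q_smul, hQa', polar_smul_right', polar_comm, hw2]
      ring
    have hzb : polar (⇑(oddForm m F)) z b = 0 := by
      rw [hb, polar_sub_right, polar_smul_right', hw1, polar_comm _ z a', hc1]
      ring
    have hab : polar (⇑(oddForm m F)) a' b = 1 := by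
      rw [hb, polar_sub_right, polar_smul_right', hw2, polar_self_eq, hQa']
      ring
    let i₀ : Fin m := ⟨0, by omega⟩
    let i₁ : Fin m := ⟨1, by omega⟩
    have hli : LinearIndependent F ![fV m F i₀, fV m F i₁] := by
      rw [LinearIndependent.pair_iff]
      intro s t hst
      have h3 := congrFun (congrArg yc hst) i₀
      have h4 := congrFun (congrArg yc hst) i₁
      have hne : i₀ ≠ i₁ := by simp [i₀, i₁, Fin.ext_iff]
      simp [hne, hne.symm] at h3 h4
      exact ⟨h3, h4⟩
    have hli' : LinearIndependent F ![z, b] := by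
      rw [LinearIndependent.pair_iff]
      intro s t hst
      have h3 := congrArg (polar (⇑(oddForm m F)) a') hst
      rw [polar_add_right, polar_smul_right', polar_smul_right', hc1, hab] at h3
      have h5 : polar (⇑(oddForm m F)) a' 0 = 0 := polar_zero_right _ _
      rw [h5] at h3
      have ht : t = 0 := by linear_combination h3
      subst ht
      rw [zero_smul, add_zero] at hst
      exact ⟨(smul_eq_zero.1 hst).resolve_right hz, rfl⟩
    obtain ⟨k, hk⟩ := exists_iso_family' hnd ![fV m F i₀, fV m F i₁] ![z, b] hli hli' (by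
      intro t
      simp only [Fin.sum_univ_two, Matrix.cons_val_zero, Matrix.cons_val_one, Matrix.cons_val]
      have e1 : ∀ a b : Fin m → F, oddForm m F (mkV 0 a b) = a ⬝ᵥ b := by
        intro a b
        rw [QQ_mkV]
        simp
      rw [Q_add, Q_smul, Q_smul, polar_smul_left', polar_smul_right', e1, e1, polar_mkV]
      rw [Q_add, Q_smul, Q_smul, polar_smul_left', polar_smul_right', hQz, hQb, hzb]
      simp)
    refine ⟨k, fun h0 => ?_⟩
    have h3 := blkR_conj g k i₁ i₀
    have h4 := hk 0
    have h5 := hk 1
    simp only [Matrix.cons_val_zero, Matrix.cons_val_one, Matrix.cons_val] at h4 h5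
    rw [h0, h4, h5, ← ha', hab] at h3
    exact zero_ne_one h3
  · -- one vector suffices
    let i₀ : Fin m := ⟨0, by omega⟩
    have hli : LinearIndependent F ![fV m F i₀] := by
      rw [linearIndependent_unique_iff]
      intro h0
      have h3 := congrFun (congrArg yc h0) i₀
      simp at h3
    have hli' : LinearIndependent F ![z] := by
      rw [linearIndependent_unique_iff]
      exact hz
    obtain ⟨k, hk⟩ := exists_iso_family' hnd ![fV m F i₀] ![z] hli hli' (by
      intro t
      simp only [Fin.sum_univ_one, Matrix.cons_val_zero]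
      rw [Q_smul, Q_smul, hQz, QQ_mkV]
      simp)
    refine ⟨k, fun h0 => ?_⟩
    have h3 := blkR_conj g k i₀ i₀
    have h4 := hk 0
    simp only [Matrix.cons_val_zero] at h4
    rw [h0, h4] at h3
    exact hc1 h3.symm

end Cfsg.Agent.Lib.OreOmega
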