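import Mathlib

/-!
# A commutator from a big-cell factorization

`g = u * b * d⁻¹ * v` with `u ∈ Qu`, `v ∈ Ql`, where `b` and `d` have no fixed points on `Qu`, `Ql` and `G d G⁻¹ = b`.
-/

set_option autoImplicit false

namespace Cfsg.Agent.Lib.OreOmega

variable {O : Type*} [Group O]

/-- An element with trivial centralizer in a finite normalized subgroup: the coset is a conjugacy class. -/
theorem exists_conj_of_fpf (Q : Subgroup O) [Finite Q] (b : O)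
    (hn : ∀ q ∈ Q, b * q * b⁻¹ ∈ Q) (hf : ∀ q ∈ Q, b * q * b⁻¹ = q → q = 1) :
    ∀ u ∈ Q, ∃ q ∈ Q, u * b = q * b * q⁻¹ := by
  have hn' : ∀ q ∈ Q, b * q⁻¹ * b⁻¹ ∈ Q := fun q hq => hn _ (Q.inv_mem hq)
  let φ : Q → Q := fun q => ⟨q.1 * (b * q.1⁻¹ * b⁻¹), Q.mul_mem q.2 (hn' _ q.2)⟩
  have hφ : Function.Injective φ := by
    rintro ⟨q, hq⟩ ⟨r, hr⟩ h
    have h1 : q * (b * q⁻¹ * b⁻¹) = r * (b * r⁻¹ * b⁻¹) := congrArg Subtype.val h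
    have h4 : q * b = r * b * r⁻¹ * q := by
      calc q * b = (q * (b * q⁻¹ * b⁻¹)) * (b * q) := by group
        _ = (r * (b * r⁻¹ * b⁻¹)) * (b * q) := by rw [h1]
        _ = _ := by group
    have h2 : b * (r⁻¹ * q) * b⁻¹ = r⁻¹ * q := by
      have h7 : r⁻¹ * q * b = b * (r⁻¹ * q) := by
        calc r⁻¹ * q * b = r⁻¹ * (q * b) := by group
          _ = r⁻¹ * (r * b * r⁻¹ * q) := by rw [h4]
          _ = _ := by group
      rw [← h7]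
      group
    have h5 := hf _ (Q.mul_mem (Q.inv_mem hr) hq) h2
    apply Subtype.ext
    show q = r
    have h6 : q = r * (r⁻¹ * q) := by group
    rw [h6, h5, mul_one]
  have hs := Finite.surjective_of_injective hφ
  intro u hu
  obtain ⟨⟨q, hq⟩, h⟩ := hs ⟨u, hu⟩
  refine ⟨q, hq, ?_⟩
  have h1 : q * (b * q⁻¹ * b⁻¹) = u := congrArg Subtype.val h
  rw [← h1]
  group

/-- The subgroup lies in the commutator subgroup. -/
theorem mem_commutator_of_fpf (Q : Subgroup O) [Finite Q] (b : O)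
    (hn : ∀ q ∈ Q, b * q * b⁻¹ ∈ Q) (hf : ∀ q ∈ Q, b * q * b⁻¹ = q → q = 1) :
    ∀ u ∈ Q, u ∈ commutator O := by
  intro u hu
  obtain ⟨q, -, h⟩ := exists_conj_of_fpf Q b hn hf u hu
  have h1 : u = q * b * q⁻¹ * b⁻¹ := by
    rw [← h]
    group
  rw [h1, commutator_def]
  exact Subgroup.commutator_mem_commutator (Subgroup.mem_top q) (Subgroup.mem_top b)

/-- The commutator from a big-cell factorization. -/
theorem exists_comm_of_cell (Ω Qu Ql : Subgroup O) [Finite Qu] [Finite Ql]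
    (hQu : Qu ≤ Ω) (hQl : Ql ≤ Ω) (b d G u v : O)
    (hnb : ∀ q ∈ Qu, b * q * b⁻¹ ∈ Qu) (hfb : ∀ q ∈ Qu, b * q * b⁻¹ = q → q = 1)
    (hnd : ∀ q ∈ Ql, d * q * d⁻¹ ∈ Ql) (hfd : ∀ q ∈ Ql, d * q * d⁻¹ = q → q = 1)
    (hG : G * d * G⁻¹ = b) (hb : b ∈ Ω) (hGΩ : G ∈ Ω) (hu : u ∈ Qu) (hv : v ∈ Ql) :
    ∃ a ∈ Ω, ∃ w ∈ Ω, u * b * d⁻¹ * v = a * w * a⁻¹ * w⁻¹ := by
  obtain ⟨q₁, hq₁, h₁⟩ := exists_conj_of_fpf Qu b hnb hfb u hu
  -- the inverse of `d`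
  have hnd' : ∀ q ∈ Ql, d⁻¹ * q * d⁻¹⁻¹ ∈ Ql := by
    intro q hq
    -- conjugation by `d` is a bijection on the finite subgroup
    let φ : Ql → Ql := fun r => ⟨d * r.1 * d⁻¹, hnd _ r.2⟩
    have hφ : Function.Injective φ := by
      rintro ⟨r, hr⟩ ⟨s, hs⟩ h
      have h1 : d * r * d⁻¹ = d * s * d⁻¹ := congrArg Subtype.val h
      apply Subtype.ext
      show r = s
      simpa using h1
    obtain ⟨⟨r, hr⟩, h⟩ := Finite.surjective_of_injective hφ ⟨q, hq⟩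
    have h1 : d * r * d⁻¹ = q := congrArg Subtype.val h
    have h2 : d⁻¹ * q * d⁻¹⁻¹ = r := by
      rw [← h1]
      group
    rw [h2]
    exact hr
  have hfd' : ∀ q ∈ Ql, d⁻¹ * q * d⁻¹⁻¹ = q → q = 1 := by
    intro q hq h
    apply hfd q hq
    conv_lhs => rw [← h]
    group
  obtain ⟨q₂, hq₂, h₂⟩ := exists_conj_of_fpf Ql d⁻¹ hnd' hfd' (d⁻¹ * v * d⁻¹⁻¹) (hnd' v hv)
  have h₂' : d⁻¹ * v = q₂ * d⁻¹ * q₂⁻¹ := by
    rw [← h₂]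
    group
  have hG' : d⁻¹ = G⁻¹ * b⁻¹ * G := by
    rw [← hG]
    group
  refine ⟨u * b, Ω.mul_mem (hQu hu) hb, q₂ * G⁻¹ * q₁⁻¹,
    Ω.mul_mem (Ω.mul_mem (hQl hq₂) (Ω.inv_mem hGΩ)) (Ω.inv_mem (hQu hq₁)), ?_⟩
  have h3 : (q₂ * G⁻¹ * q₁⁻¹) * (u * b)⁻¹ * (q₂ * G⁻¹ * q₁⁻¹)⁻¹ = d⁻¹ * v := by
    rw [h₁, h₂', hG']
    group
  calc u * b * d⁻¹ * v = (u * b) * (d⁻¹ * v) := by group
    _ = (u * b) * ((q₂ * G⁻¹ * q₁⁻¹) * (u * b)⁻¹ * (q₂ * G⁻¹ * q₁⁻¹)⁻¹) := by rw [h3]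
    _ = _ := by group

end Cfsg.Agent.Lib.OreOmega
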