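import Mathlib
import Cfsg.Agent.Lib.Linalg.Lev.Main

/-!
# The factorization `T = B D⁻¹` with `B`, `D` conjugate by determinant one

This is the factorization behind `isComm_of_nonscalar`, keeping the characteristic polynomials.
-/

set_option autoImplicit false

open Polynomial Module

namespace Cfsg.Agent.Lib.OreOmega

open Cfsg.Agent.Lib.Linalg.Lev

universe u v

variable {F : Type u} [Field F] {V : Type v} [AddCommGroup V] [Module F V] [FiniteDimensional F V]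

/-- The conjugating element of determinant one. -/
theorem exists_G_of_factor (B D : V →ₗ[F] V) (φ : V →ₗ[F] F) (f : F[X]) (z z₀ e' : V) (κ : F)
    (hB : IsCyc B f z) (hD : IsCyc D f z₀)
    (hDe : D e' = κ • e') (he' : φ e' = 1) (hDφ : ∀ x, φ x = 0 → φ (D x) = 0) :
    ∃ G : V ≃ₗ[F] V, LinearMap.det (G : V →ₗ[F] V) = 1 ∧ ∀ x, G (D x) = B (G x) := by
  classical
  obtain ⟨e, he⟩ := hD.exists_conj hB
  set δ := LinearMap.det (e : V →ₗ[F] V) with hδdef
  have hδ : δ ≠ 0 := (LinearEquiv.isUnit_det' e).ne_zero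
  set s : F := δ⁻¹ with hs
  have hs0 : s ≠ 0 := inv_ne_zero hδ
  have hφDx : ∀ x, φ (D x) = κ * φ x := by
    intro x
    have h1 : φ (x - φ x • e') = 0 := by
      rw [map_sub, map_smul, he', smul_eq_mul, mul_one, sub_self]
    have h2 := hDφ _ h1
    rw [map_sub, map_sub, map_smul, map_smul, hDe, map_smul, he', smul_eq_mul, smul_eq_mul,
      mul_one, sub_eq_zero] at h2
    rw [h2]
    ring
  -- the correcting element
  let c₁ : V →ₗ[F] V := LinearMap.id + φ.smulRight ((s - 1) • e')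
  let c₂ : V →ₗ[F] V := LinearMap.id + φ.smulRight ((s⁻¹ - 1) • e')
  have hc₁ : ∀ x, c₁ x = x + φ x • (s - 1) • e' := fun _ => rfl
  have hc₂ : ∀ x, c₂ x = x + φ x • (s⁻¹ - 1) • e' := fun _ => rfl
  have hφc₁ : ∀ x, φ (c₁ x) = s * φ x := by
    intro x
    rw [hc₁, map_add, map_smul, map_smul, he', smul_eq_mul, smul_eq_mul, mul_one]
    ring
  have hφc₂ : ∀ x, φ (c₂ x) = s⁻¹ * φ x := by
    intro x
    rw [hc₂, map_add, map_smul, map_smul, he', smul_eq_mul, smul_eq_mul, mul_one]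
    ring
  let c : V ≃ₗ[F] V := LinearEquiv.ofLinearMap c₁ c₂
    (by
      refine LinearMap.ext fun x => ?_
      simp only [LinearMap.comp_apply, LinearMap.id_apply]
      rw [hc₁, hφc₂, hc₂, smul_smul, smul_smul, add_assoc, ← add_smul]
      have : φ x * (s⁻¹ - 1) + s⁻¹ * φ x * (s - 1) = 0 := by
        field_simp
        ring
      rw [this, zero_smul, add_zero])
    (by
      refine LinearMap.ext fun x => ?_
      simp only [LinearMap.comp_apply, LinearMap.id_apply]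
      rw [hc₂, hφc₁, hc₁, smul_smul, smul_smul, add_assoc, ← add_smul]
      have : φ x * (s - 1) + s * φ x * (s⁻¹ - 1) = 0 := by
        field_simp
        ring
      rw [this, zero_smul, add_zero])
  have hcx : ∀ x, c x = x + φ x • (s - 1) • e' := fun _ => rfl
  have hcinv : ∀ x ∈ LinearMap.ker φ, (c : V →ₗ[F] V) x ∈ LinearMap.ker φ := by
    intro x hx
    have hx' : φ x = 0 := hx
    rw [LinearMap.mem_ker]
    change φ (c₁ x) = 0
    rw [hφc₁, hx', mul_zero]
  have hdetc : LinearMap.det (c : V →ₗ[F] V) = s := by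
    have h1 := det_of_hyperplane (c : V →ₗ[F] V) φ e' he' hcinv
    have h2 : (c : V →ₗ[F] V).restrict hcinv = LinearMap.id := by
      refine LinearMap.ext fun x => Subtype.ext ?_
      have hx' : φ (x : V) = 0 := x.2
      rw [LinearMap.coe_restrict_apply]
      change c (x : V) = x
      rw [hcx, hx', zero_smul, add_zero]
    rw [h1, h2, LinearMap.det_id, one_mul]
    change φ (c₁ e') = s
    rw [hφc₁, he', mul_one]
  have hcD : ∀ x, c (D x) = D (c x) := by
    intro x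
    rw [hcx, hcx, map_add, map_smul, map_smul, hDe, hφDx]
    module
  let G : V ≃ₗ[F] V := c.trans e
  have hGx : ∀ x, G x = e (c x) := fun _ => rfl
  have hdetG : LinearMap.det (G : V →ₗ[F] V) = 1 := by
    have : (G : V →ₗ[F] V) = (e : V →ₗ[F] V) ∘ₗ (c : V →ₗ[F] V) := rfl
    rw [this, LinearMap.det_comp, hdetc, ← hδdef, hs, mul_inv_cancel₀ hδ]
  refine ⟨G, hdetG, fun x => ?_⟩
  rw [hGx, hGx, hcD, he]

/-- **The factorization.** `T = B D⁻¹` with `B`, `D` having the prescribed characteristic polynomial, and conjugate by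
an element of determinant one. -/
theorem exists_cell_factor (T : V →ₗ[F] V) (hinj : Function.Injective T) (hdet : LinearMap.det T = 1)
    (hT : ¬ ∃ a : F, ∀ x, T x = a • x) {t : F} (ht0 : t ≠ 0) (ht1 : t ≠ 1)
    (p : F[X]) (hp : p.Monic) (hpd : p.natDegree + 1 = finrank F V) (κ : F)
    (hκp : p.eval κ ≠ 0) (hκ1 : (-1) ^ p.natDegree * p.coeff 0 * κ = 1) :
    ∃ (B D : V →ₗ[F] V) (G : V ≃ₗ[F] V), (∀ x, B x = T (D x)) ∧ B.charpoly = (X - C κ) * p ∧
      D.charpoly = (X - C κ) * p ∧ LinearMap.det (G : V →ₗ[F] V) = 1 ∧ ∀ x, G (D x) = B (G x) := by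
  classical
  obtain ⟨W, U, hc, hW, hU, hU2, z, hz, hgen⟩ := exists_decomp T hT
  let A : W ≃ₗ[F] W := resEquiv T hinj W hW
  let Z : U ≃ₗ[F] U := resEquiv T hinj U hU
  obtain ⟨s, τ, hd⟩ := exists_data ht0 _ W rfl (A.symm : W →ₗ[F] W) A.symm.injective
  have hgen' : ∀ x : U, ∃ g : F[X], aeval (Z : U →ₗ[F] U) g (⟨z, hz⟩ : U) = x := by
    intro x
    obtain ⟨f, hf⟩ := hgen x x.2
    refine ⟨f, Subtype.ext ?_⟩
    have := coe_aeval_restrict U T hU f ⟨z, hz⟩
    exact this.trans hf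
  obtain ⟨σ, ω, ϖ, c, e, hch, hϖ, hsep2⟩ := exists_chain (Z : U →ₗ[F] U) ⟨z, hz⟩ hgen' (by omega)
  let e₀ : (W × U) ≃ₗ[F] V := Submodule.prodEquivOfIsCompl W U hc
  have he₀ : ∀ x : W × U, e₀ x = (x.1 : V) + (x.2 : V) := fun _ => rfl
  have hconj : ∀ x : W × U, e₀ ((A.prodCongr Z) x) = T (e₀ x) := by
    rintro ⟨x₁, x₂⟩
    rw [he₀, he₀, map_add]
    rfl
  have hdet' : LinearMap.det ((A.prodCongr Z : (W × U) ≃ₗ[F] (W × U)) : (W × U) →ₗ[F] (W × U)) = 1 := by
    have h1 : ((A.prodCongr Z : (W × U) ≃ₗ[F] (W × U)) : (W × U) →ₗ[F] (W × U)) =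
        (e₀.symm : V →ₗ[F] (W × U)) ∘ₗ T ∘ₗ (e₀ : (W × U) →ₗ[F] V) := by
      refine LinearMap.ext fun x => e₀.injective ?_
      change e₀ ((A.prodCongr Z) x) = e₀ (e₀.symm (T (e₀ x)))
      rw [hconj, e₀.apply_symm_apply]
    rw [h1]
    exact (LinearMap.det_conj T e₀.symm).trans hdet
  have hsep : (∀ u, ω u = 0 → ϖ u = 0 → u = 0) ∨ (∀ x, A.symm (s x) = x → x = 0) :=
    Or.inr (hd.fix ht1)
  have hfr : finrank F (W × U) = finrank F V := e₀.finrank_eq
  have hpd' : p.natDegree + 1 = finrank F (W × U) := by rw [hfr]; exact hpd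
  have hp0 : p.coeff 0 ≠ 0 := by
    intro h0
    rw [h0] at hκ1
    simp at hκ1
  have hf : ((X - C κ) * p).Monic := (monic_X_sub_C κ).mul hp
  have hfd : ((X - C κ) * p).natDegree = finrank F (W × U) := by
    rw [(monic_X_sub_C κ).natDegree_mul hp, natDegree_X_sub_C, add_comm]
    exact hpd'
  have hf0 : (-1) ^ finrank F (W × U) * ((X - C κ) * p).coeff 0 = 1 := by
    rw [← hpd', mul_coeff_zero, coeff_sub, coeff_X_zero, coeff_C_zero, pow_succ]
    linear_combination hκ1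
  obtain ⟨B, D, z', z₀, e', φ, hBD, hB, hD', hDe, he', hDφ⟩ := exists_factor_prod A Z hd hch (hϖ hU2) hsep p hp hpd'
    hp0 κ hκp ((X - C κ) * p) hf hfd (by rw [hf0, hdet', hκ1, one_mul])
  obtain ⟨G, hG, hGD⟩ := exists_G_of_factor B D φ _ z' z₀ e' κ hB hD' hDe he' hDφ
  refine ⟨(e₀ : (W × U) →ₗ[F] V) ∘ₗ B ∘ₗ (e₀.symm : V →ₗ[F] (W × U)),
    (e₀ : (W × U) →ₗ[F] V) ∘ₗ D ∘ₗ (e₀.symm : V →ₗ[F] (W × U)),
    e₀.symm.trans (G.trans e₀), ?_, ?_, ?_, ?_, ?_⟩
  · intro x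
    simp only [LinearMap.comp_apply, LinearEquiv.coe_coe, LinearEquiv.apply_symm_apply]
    rw [hBD, hconj]
  · have h1 := LinearEquiv.charpoly_conj e₀ B
    rw [hB.charpoly_eq] at h1
    exact h1
  · have h1 := LinearEquiv.charpoly_conj e₀ D
    rw [hD'.charpoly_eq] at h1
    exact h1
  · have h1 : ((e₀.symm.trans (G.trans e₀) : V ≃ₗ[F] V) : V →ₗ[F] V) =
        (e₀ : (W × U) →ₗ[F] V) ∘ₗ (G : (W × U) →ₗ[F] (W × U)) ∘ₗ (e₀.symm : V →ₗ[F] (W × U)) := rfl
    rw [h1, LinearMap.det_conj, hG]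
  · intro x
    simp only [LinearMap.comp_apply, LinearEquiv.coe_coe, LinearEquiv.trans_apply, LinearEquiv.symm_apply_apply]
    rw [hGD]

end Cfsg.Agent.Lib.OreOmega
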