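import Mathlib

/-!
# A polynomial for the Levi element

For a finite field `F` with at least three elements and `d ≥ 2`: an irreducible monic polynomial `p` of degree `d`,
not dividing its reverse, and `κ ≠ 1` with `(-1)^d p(0) κ = 1`.
-/

set_option autoImplicit false

open Polynomial

namespace Cfsg.Agent.Lib.OreOmega

variable {F : Type*} [Field F] [Fintype F]

theorem exists_good_poly (hq : 3 ≤ Fintype.card F) (d : ℕ) (hd : 2 ≤ d) :
    ∃ (p : F[X]) (κ : F), p.Monic ∧ Irreducible p ∧ p.natDegree = d ∧ κ ≠ 1 ∧ κ ≠ 0 ∧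
      (-1) ^ d * p.coeff 0 * κ = 1 ∧ ¬ p ∣ p.reverse := by
  classical
  obtain ⟨ℓ, hℓ⟩ := CharP.exists F
  obtain ⟨k, hℓp, hk⟩ := FiniteField.card F ℓ
  haveI : Fact ℓ.Prime := ⟨hℓp⟩
  haveI : NeZero d := ⟨by omega⟩
  let K := FiniteField.Extension F ℓ d
  haveI : Fintype K := Fintype.ofFinite K
  set q := Fintype.card F with hqdef
  have hfr : Module.finrank F K = d := FiniteField.finrank_extension F ℓ d
  have hcard : Fintype.card K = q ^ d := by
    rw [Module.card_eq_pow_finrank (K := F) (V := K), hfr]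
  obtain ⟨σ, hσ⟩ := IsCyclic.exists_generator (α := Kˣ)
  have hord : orderOf σ = q ^ d - 1 := by
    rw [orderOf_eq_card_of_forall_mem_zpowers hσ, Nat.card_eq_fintype_card, Fintype.card_units, hcard]
  set s : K := (σ : K) with hs
  have hpow : ∀ n : ℕ, s ^ n = 1 → q ^ d - 1 ∣ n := by
    intro n hn
    rw [← hord]
    apply orderOf_dvd_of_pow_eq_one
    apply Units.ext
    simpa using hn
  have hint : IsIntegral F s := Algebra.IsIntegral.isIntegral s
  set p := minpoly F s with hp
  have htop : Algebra.adjoin F {s} = ⊤ := by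
    rw [eq_top_iff]
    intro x _
    by_cases hx : x = 0
    · rw [hx]
      exact Subalgebra.zero_mem _
    · obtain ⟨n, hn⟩ := hσ (Units.mk0 x hx)
      -- powers of the generator: reduce to natural powers using the finite order
      have hσ0 : 0 < orderOf σ := orderOf_pos σ
      have h1 : Units.mk0 x hx = σ ^ (n % (orderOf σ : ℤ)).toNat := by
        have h2 : (σ ^ n) = σ ^ (n % (orderOf σ : ℤ)) := (zpow_mod_orderOf σ n).symm
        have h3 : 0 ≤ n % (orderOf σ : ℤ) := Int.emod_nonneg _ (by exact_mod_cast hσ0.ne')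
        rw [← hn]
        show σ ^ n = _
        rw [h2]
        conv_lhs => rw [← Int.toNat_of_nonneg h3]
        exact zpow_natCast _ _
      have h2 : x = s ^ (n % (orderOf σ : ℤ)).toNat := by
        have := congrArg Units.val h1
        simpa using this
      rw [h2]
      exact Subalgebra.pow_mem _ (Algebra.subset_adjoin (Set.mem_singleton s)) _
  let pb : PowerBasis F K := PowerBasis.ofAdjoinEqTop hint htop
  have hgen : pb.gen = s := PowerBasis.ofAdjoinEqTop_gen hint htop
  have hdim : pb.dim = d := by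
    have h2 := pb.finrank
    rw [hfr] at h2
    exact h2.symm
  have hdeg : p.natDegree = d := by
    have h1 : pb.dim = p.natDegree := PowerBasis.ofAdjoinEqTop_dim hint htop
    omega
  have hnorm : Algebra.norm F s = (-1) ^ d * p.coeff 0 := by
    have := Algebra.PowerBasis.norm_gen_eq_coeff_zero_minpoly pb
    rw [hgen, ← hp, hdim] at this
    exact this
  have hq1 : 1 < q := by omega
  have hN : (Algebra.norm F s) ≠ 1 := by
    intro h1
    have h2 := FiniteField.algebraMap_norm_eq_pow (K := F) (K' := K) (x := s)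
    rw [h1, map_one, Nat.card_eq_fintype_card, Nat.card_eq_fintype_card, hcard] at h2
    have h3 := hpow _ h2.symm
    have h4 : q - 1 ∣ q ^ d - 1 := by
      simpa using Nat.sub_dvd_pow_sub_pow q 1 d
    have h5 : q ^ d ≥ q ^ 2 := Nat.pow_le_pow_right (by omega) hd
    have h6 : q ^ 2 = q * q := sq q
    have h7 : q * q ≥ 3 * q := Nat.mul_le_mul_right q hq
    have hpos : 0 < (q ^ d - 1) / (q - 1) := Nat.div_pos (Nat.le_of_dvd (by omega) h4) (by omega)
    have h8 := Nat.le_of_dvd hpos h3
    have h9 : (q ^ d - 1) / (q - 1) < q ^ d - 1 := Nat.div_lt_self (by omega) (by omega)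
    omega
  have hN0 : Algebra.norm F s ≠ 0 := by
    rw [Ne, Algebra.norm_eq_zero_iff]
    exact σ.ne_zero
  refine ⟨p, (Algebra.norm F s)⁻¹, minpoly.monic hint, minpoly.irreducible hint, hdeg, ?_, inv_ne_zero hN0, ?_, ?_⟩
  · intro h
    apply hN
    rw [← inv_inv (Algebra.norm F s), h, inv_one]
  · rw [← hnorm, mul_inv_cancel₀ hN0]
  · intro hdvd
    -- the inverse of `s` is a root
    have h1 : aeval s p.reverse = 0 := by
      obtain ⟨c, hc⟩ := hdvd
      rw [hc, map_mul, minpoly.aeval, zero_mul]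
    haveI : Invertible (s⁻¹ : K) := invertibleOfNonzero (inv_ne_zero σ.ne_zero)
    have h2 : aeval (s⁻¹) p = 0 := by
      have h3 := eval₂_reverse_mul_pow (algebraMap F K) (s⁻¹) p
      have h4 : ⅟(s⁻¹) = s := by
        rw [invOf_eq_inv, inv_inv]
      rw [h4] at h3
      rw [aeval_def, ← h3, ← aeval_def, h1, zero_mul]
    have h5 : IsIntegral F (s⁻¹) := Algebra.IsIntegral.isIntegral _
    obtain ⟨τ, hτ⟩ := minpoly.exists_algEquiv_of_root' hint.isAlgebraic h2
    obtain ⟨i, hi, hτi⟩ := FiniteField.Extension.exists_frob_pow_eq F ℓ d τ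
    have h6 : s ^ (q ^ i) = s⁻¹ := by
      rw [← hτ, ← hτi]
      have := FiniteField.Extension.frob_iterate_apply F ℓ d i (x := s)
      rw [Nat.card_eq_fintype_card] at this
      exact this.symm
    have h7 : s ^ (q ^ i + 1) = 1 := by
      rw [pow_succ, h6, inv_mul_cancel₀ σ.ne_zero]
    have h8 := Nat.le_of_dvd (by omega) (hpow _ h7)
    have h9 : q ^ i ≤ q ^ (d - 1) := Nat.pow_le_pow_right (by omega) (by omega)
    have h10 : q ^ d = q * q ^ (d - 1) := by
      rw [← pow_succ']
      congr 1
      omega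
    have h11 : q ^ (d - 1) ≥ q ^ 1 := Nat.pow_le_pow_right (by omega) (by omega)
    have h12 : q * q ^ (d - 1) ≥ 3 * q ^ (d - 1) := Nat.mul_le_mul_right _ hq
    rw [pow_one] at h11
    omega

end Cfsg.Agent.Lib.OreOmega
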