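import Mathlib
import Cfsg.Agent.Lib.OreOmega.Cell

/-!
# The Levi subgroup and `Ω` in the odd-dimensional form
-/

set_option autoImplicit false
set_option linter.unusedSectionVars false
set_option linter.unusedSimpArgs false
set_option linter.unusedVariables false

namespace Cfsg.Agent.Lib.OreOmega

open Matrix QuadraticMap Module
open Cfsg.Agent.Lib.Classical.Orth.Basic
open Cfsg.Agent.Lib.Classical.Orth.Models
open Cfsg.Agent.Lib.Classical.Orth.Spinor
open Cfsg.Agent.Lib.Classical.Orth.NegPairs
open Cfsg.Agent.Lib.Classical.Orth.Levi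

variable {F : Type*} [Field F] [Fintype F] {m : ℕ}

open _root_.Classical in
/-- The spinor sign on the Levi subgroup is the quadratic character of the determinant. -/
theorem spinorSign_levi (h2 : (2 : F) ≠ 0) (A : GL (Fin m) F) :
    ((spinorSign (oddForm m F) h2 (levi A) : ℤˣ) : ℤ) = quadraticChar F (A : Matrix (Fin m) (Fin m) F).det := by
  classical
  have key : ∀ M : Matrix (Fin m) (Fin m) F, M.det ≠ 0 → ∀ A : GL (Fin m) F,
      (A : Matrix (Fin m) (Fin m) F) = M →
      ((spinorSign (oddForm m F) h2 (levi A) : ℤˣ) : ℤ) = quadraticChar F M.det := by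
    intro M hM
    refine Matrix.diagonal_transvection_induction_of_det_ne_zero
      (fun M => ∀ A : GL (Fin m) F, (A : Matrix (Fin m) (Fin m) F) = M →
        ((spinorSign (oddForm m F) h2 (levi A) : ℤˣ) : ℤ) = quadraticChar F M.det) M hM ?_ ?_ ?_
    · intro D hD A hA
      have hD0 : ∀ i, D i ≠ 0 := by
        intro i h0
        apply hD
        rw [Matrix.det_diagonal]
        exact Finset.prod_eq_zero (Finset.mem_univ i) h0
      have hD' : ∀ j j' : Fin m, j ≠ j' → (Sum.inr (Sum.inl j) : II m) ≠ Sum.inr (Sum.inl j') ∧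
          (Sum.inr (Sum.inl j) : II m) ≠ Sum.inr (Sum.inr j') ∧ (Sum.inr (Sum.inr j) : II m) ≠ Sum.inr (Sum.inl j') ∧
          (Sum.inr (Sum.inr j) : II m) ≠ Sum.inr (Sum.inr j') := by
        intro j j' hne
        simp [hne]
      obtain ⟨vs, hvs, hlen, hprod, hmat⟩ := diagonal_scale_prod (oddForm m F)
        (fun j : Fin m => (Sum.inr (Sum.inl j) : II m)) (fun j => Sum.inr (Sum.inr j))
        (odd_isHypPair m) hD' D hD0 Finset.univ
        (Sum.elim (fun _ => 1) (Sum.elim D (fun i => (D i)⁻¹))) (by simp) (by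
          intro k hk
          rcases k with u | j | j
          · rfl
          · exact absurd rfl (hk j (Finset.mem_univ _)).1
          · exact absurd rfl (hk j (Finset.mem_univ _)).2)
      have hg : matO (levi A) = (vs.map (fun v => Cfsg.reflectionMatrix (⇑(oddForm m F)) v)).prod := by
        rw [← hmat]
        show fromBlocks 1 0 0 (fromBlocks (A : Matrix (Fin m) (Fin m) F) 0 0 ((A⁻¹ : GL (Fin m) F) : Matrix (Fin m) (Fin m) F)ᵀ) = _
        have hinv : ((A⁻¹ : GL (Fin m) F) : Matrix (Fin m) (Fin m) F) = Matrix.diagonal (fun i => (D i)⁻¹) := by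
          rw [Matrix.coe_units_inv, hA]
          apply Matrix.inv_eq_right_inv
          rw [Matrix.diagonal_mul_diagonal]
          simp [hD0, Matrix.diagonal_one]
        rw [hinv, hA, Matrix.diagonal_transpose]
        ext i j
        rcases i with i | i | i <;> rcases j with j | j | j <;> simp [Matrix.diagonal_apply, Matrix.one_apply]
      rw [(signs_of_list (oddForm m F) h2 vs hvs _ hg).2, hprod, Matrix.det_diagonal]
    · intro t A hA
      set T' : GL (Fin m) F := ⟨Matrix.transvection t.i t.j (t.c / 2),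
        Matrix.transvection t.i t.j (-(t.c / 2)),
        by rw [Matrix.transvection_mul_transvection_same _ _ t.hij]; simp,
        by rw [Matrix.transvection_mul_transvection_same _ _ t.hij]; simp⟩ with hT'
      have hA' : A = T' * T' := by
        apply Units.ext
        show (A : Matrix (Fin m) (Fin m) F) = Matrix.transvection t.i t.j (t.c / 2) * Matrix.transvection t.i t.j (t.c / 2)
        rw [hA, Matrix.transvection_mul_transvection_same _ _ t.hij]
        have : t.c / 2 + t.c / 2 = t.c := by
          field_simp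
          ring
        rw [this]
        rfl
      rw [hA', map_mul, map_mul, Int.units_mul_self]
      simp
    · intro M₁ M₂ h₁ h₂ ih₁ ih₂ A hA
      have hM₁ : IsUnit M₁ := (Matrix.isUnit_iff_isUnit_det _).2 (isUnit_iff_ne_zero.2 h₁)
      have hM₂ : IsUnit M₂ := (Matrix.isUnit_iff_isUnit_det _).2 (isUnit_iff_ne_zero.2 h₂)
      obtain ⟨A₁, rfl⟩ := hM₁
      obtain ⟨A₂, rfl⟩ := hM₂
      have hA' : A = A₁ * A₂ := Units.ext hA
      rw [hA', map_mul, map_mul, Units.val_mul, ih₁ A₁ rfl, ih₂ A₂ rfl, Matrix.det_mul, map_mul]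
  exact key _ (isUnit_iff_ne_zero.1 ((Matrix.isUnit_iff_isUnit_det _).1 A.isUnit)) A rfl

/-- **`levi A ∈ Ω` iff `det A` is a square.** -/
theorem levi_mem_omega_iff (h2 : (2 : F) ≠ 0) (A : GL (Fin m) F) :
    levi A ∈ Cfsg.Omega F (⇑(oddForm m F)) ↔ IsSquare (A : Matrix (Fin m) (Fin m) F).det := by
  classical
  have hdet0 : (A : Matrix (Fin m) (Fin m) F).det ≠ 0 :=
    isUnit_iff_ne_zero.1 ((Matrix.isUnit_iff_isUnit_det _).1 A.isUnit)
  have hnd := oddForm_nondegenerate (F := F) h2 m
  rw [mem_omega_iff (oddForm m F) hnd h2]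
  rw [← quadraticChar_one_iff_isSquare hdet0]
  have h9 := spinorSign_levi h2 A
  rw [show quadraticChar F (A : Matrix (Fin m) (Fin m) F).det = _ from (by convert h9.symm)]
  have h3 := (sign_mul_iff_det hnd h2 (levi A)).2 (det_levi A)
  constructor
  · rintro ⟨-, h4⟩
    rw [h4]
    rfl
  · intro h4
    have h5 : spinorSign (oddForm m F) h2 (levi A) = 1 := Units.ext h4
    rw [h5, mul_one] at h3
    exact ⟨h3, h5⟩

end Cfsg.Agent.Lib.OreOmega
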