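import Mathlib
import Cfsg.Agent.Lib.OreOmega.Comm
import Cfsg.Agent.Lib.OreOmega.Poly
import Cfsg.Agent.Lib.OreOmega.LevFactor
import Cfsg.Agent.Lib.OreOmega.Normal
import Cfsg.Agent.Lib.OreOmega.Spin
import Cfsg.Agent.Lib.OreOmega.Position

/-!
# Every element of `Ω_{2m+1}(q)` is a commutator
-/

set_option autoImplicit false
set_option linter.unusedSectionVars false
set_option linter.unusedSimpArgs false
set_option linter.unusedVariables false

namespace Cfsg.Agent.Lib.OreOmega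

open Matrix QuadraticMap Module Polynomial
open Cfsg.Agent.Lib.Classical.Orth.Basic
open Cfsg.Agent.Lib.Classical.Orth.Models
open Cfsg.Agent.Lib.Classical.Orth.Spinor

variable {F : Type*} [Field F] [Fintype F] {m : ℕ}

/-- The factorization in matrix form. -/
theorem exists_matrix_factor (h2 : (2 : F) ≠ 0) {p : F[X]} {κ : F} (hp : p.Monic) (hpd : p.natDegree + 1 = m)
    (hκp : p.eval κ ≠ 0) (hκ1 : (-1) ^ p.natDegree * p.coeff 0 * κ = 1)
    (A : GL (Fin m) F) (hdet : (A : Matrix (Fin m) (Fin m) F).det = 1)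
    (hns : ¬ ∃ a : F, (A : Matrix (Fin m) (Fin m) F) = a • 1) :
    ∃ B D G : GL (Fin m) F, A = B * D⁻¹ ∧ (B : Matrix (Fin m) (Fin m) F).charpoly = (X - C κ) * p ∧
      (D : Matrix (Fin m) (Fin m) F).charpoly = (X - C κ) * p ∧ G * D * G⁻¹ = B ∧
      (G : Matrix (Fin m) (Fin m) F).det = 1 ∧ (B : Matrix (Fin m) (Fin m) F).det = 1 := by
  classical
  set AA : Matrix (Fin m) (Fin m) F := (A : Matrix (Fin m) (Fin m) F) with hAA
  have h21 : (2 : F) ≠ 1 := by
    intro h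
    apply (one_ne_zero : (1 : F) ≠ 0)
    linear_combination h
  have hinj : Function.Injective (Matrix.toLin' AA) := by
    intro x y hxy
    have h1 : AA *ᵥ x = AA *ᵥ y := by simpa using hxy
    have h3 := congrArg (fun v => ((A⁻¹ : GL (Fin m) F) : Matrix (Fin m) (Fin m) F) *ᵥ v) h1
    simpa [mulVec_mulVec, hAA] using h3
  have hfr : finrank F (Fin m → F) = m := by simp
  obtain ⟨B', D', G', hBD, hB, hD, hG, hGD⟩ := exists_cell_factor (Matrix.toLin' AA) hinj
    (by rw [LinearMap.det_toLin', hdet]) (by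
      rintro ⟨a, ha⟩
      apply hns
      refine ⟨a, ?_⟩
      apply Matrix.ext_of_mulVec_single
      intro j
      have := ha (Pi.single j 1)
      rw [Matrix.toLin'_apply] at this
      rw [this, smul_mulVec, one_mulVec]) (t := 2) h2 h21 p hp (by rw [hfr]; exact hpd) κ hκp hκ1
  have hchar : ∀ T : (Fin m → F) →ₗ[F] (Fin m → F), (LinearMap.toMatrix' T).charpoly = T.charpoly := by
    intro T
    have := Matrix.charpoly_toLin' (LinearMap.toMatrix' T)
    rw [Matrix.toLin'_toMatrix'] at this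
    exact this.symm
  have hf0 : (-1 : F) ^ m * ((X - C κ) * p).coeff 0 = 1 := by
    rw [← hpd, mul_coeff_zero, coeff_sub, coeff_X_zero, coeff_C_zero, pow_succ]
    linear_combination hκ1
  have hdetf : ∀ M : Matrix (Fin m) (Fin m) F, M.charpoly = (X - C κ) * p → M.det = 1 := by
    intro M hM
    rw [Matrix.det_eq_sign_charpoly_coeff, hM, Fintype.card_fin]
    exact hf0
  have h10 : (1 : F) ≠ 0 := one_ne_zero
  have hBm : (LinearMap.toMatrix' B').charpoly = (X - C κ) * p := by rw [hchar, hB]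
  have hDm : (LinearMap.toMatrix' D').charpoly = (X - C κ) * p := by rw [hchar, hD]
  have hGdet : (LinearMap.toMatrix' (G' : (Fin m → F) →ₗ[F] (Fin m → F))).det = 1 := by
    rw [LinearMap.det_toMatrix']
    exact hG
  let BB : GL (Fin m) F := Matrix.GeneralLinearGroup.mkOfDetNeZero _ (by rw [hdetf _ hBm]; exact h10)
  let DD : GL (Fin m) F := Matrix.GeneralLinearGroup.mkOfDetNeZero _ (by rw [hdetf _ hDm]; exact h10)
  let GG : GL (Fin m) F := Matrix.GeneralLinearGroup.mkOfDetNeZero _ (by rw [hGdet]; exact h10)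
  have hBB : (BB : Matrix (Fin m) (Fin m) F) = LinearMap.toMatrix' B' := rfl
  have hDD : (DD : Matrix (Fin m) (Fin m) F) = LinearMap.toMatrix' D' := rfl
  have hGG : (GG : Matrix (Fin m) (Fin m) F) = LinearMap.toMatrix' (G' : (Fin m → F) →ₗ[F] (Fin m → F)) := rfl
  have h1 : BB = A * DD := by
    apply Units.ext
    rw [Units.val_mul, hBB, hDD, ← hAA]
    have h3 : B' = Matrix.toLin' AA ∘ₗ D' := LinearMap.ext hBD
    rw [h3, LinearMap.toMatrix'_comp, LinearMap.toMatrix'_toLin']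
  have h3 : GG * DD = BB * GG := by
    apply Units.ext
    rw [Units.val_mul, Units.val_mul, hBB, hDD, hGG, ← LinearMap.toMatrix'_comp, ← LinearMap.toMatrix'_comp]
    congr 1
    exact LinearMap.ext hGD
  refine ⟨BB, DD, GG, ?_, hBm, hDm, ?_, hGdet, hdetf _ hBm⟩
  · rw [h1, mul_inv_cancel_right]
  · rw [h3, mul_inv_cancel_right]

section Main

variable (h2 : (2 : F) ≠ 0)

/-- The data of the Levi elements. -/
structure GoodPoly (p : F[X]) (κ : F) : Prop where
  monic : p.Monic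
  irr : Irreducible p
  two : 2 ≤ p.natDegree
  ne1 : κ ≠ 1
  ne0 : κ ≠ 0
  rel : (-1) ^ p.natDegree * p.coeff 0 * κ = 1
  rev : ¬ p ∣ p.reverse

variable {p : F[X]} {κ : F}

include h2 in
theorem fpfU_of_charpoly (hg : GoodPoly p κ) (B : GL (Fin m) F)
    (hB : (B : Matrix (Fin m) (Fin m) F).charpoly = (X - C κ) * p) :
    ∀ q ∈ QU m F, levi B * q * (levi B)⁻¹ = q → q = 1 :=
  fpf_QU h2 B (fun c hc => vec_fix_zero _ hB hg.irr hg.two hg.ne1 c hc)
    (fun A hA h => alt_fix_zero _ A hB hg.irr hg.two hg.ne0 hg.rev hA h)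

include h2 in
theorem fpfL_of_charpoly (hg : GoodPoly p κ) (D : GL (Fin m) F)
    (hD : (D : Matrix (Fin m) (Fin m) F).charpoly = (X - C κ) * p) :
    ∀ q ∈ QL m F, levi D * q * (levi D)⁻¹ = q → q = 1 := by
  have hT : ((D : Matrix (Fin m) (Fin m) F)ᵀ).charpoly = (X - C κ) * p := by
    rw [Matrix.charpoly_transpose, hD]
  exact fpf_QL h2 D (fun c hc => vec_fix_zero _ hT hg.irr hg.two hg.ne1 c hc)
    (fun A hA h => alt_fix_zero _ A hT hg.irr hg.two hg.ne0 hg.rev hA (by rwa [transpose_transpose]))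

/-- A nonscalar matrix of determinant one. -/
theorem exists_nonscalar (hm : 2 ≤ m) : ∃ A : GL (Fin m) F, (A : Matrix (Fin m) (Fin m) F).det = 1 ∧
    ¬ ∃ a : F, (A : Matrix (Fin m) (Fin m) F) = a • 1 := by
  classical
  let i₀ : Fin m := ⟨0, by omega⟩
  let i₁ : Fin m := ⟨1, by omega⟩
  have hne : i₀ ≠ i₁ := by simp [i₀, i₁, Fin.ext_iff]
  have hdet : (Matrix.transvection i₀ i₁ (1 : F)).det = 1 := Matrix.det_transvection_of_ne _ _ hne _
  refine ⟨Matrix.GeneralLinearGroup.mkOfDetNeZero (Matrix.transvection i₀ i₁ (1 : F)) (by rw [hdet]; exact one_ne_zero), hdet, ?_⟩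
  rintro ⟨a, ha⟩
  have h3 : Matrix.transvection i₀ i₁ (1 : F) = a • 1 := ha
  have h4 := congrFun (congrFun h3 i₀) i₁
  simp [Matrix.transvection, Matrix.single_apply, hne, Matrix.one_apply] at h4

include h2 in
/-- The unipotent groups lie in `Ω`. -/
theorem QU_le_omega (hg : GoodPoly p κ) (hm : p.natDegree + 1 = m) :
    QU m F ≤ Cfsg.Omega F (⇑(oddForm m F)) ∧ QL m F ≤ Cfsg.Omega F (⇑(oddForm m F)) := by
  have hm2 : 2 ≤ m := by
    have := hg.two
    omega
  obtain ⟨A, hA1, hA2⟩ := exists_nonscalar (F := F) hm2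
  obtain ⟨B, D, G, -, hB, hD, -, -, -⟩ := exists_matrix_factor h2 hg.monic hm
    (noRoot_of_irreducible hg.irr hg.two κ) hg.rel A hA1 hA2
  constructor
  · intro q hq
    exact mem_commutator_of_fpf (QU m F) (levi B) (fun q hq => levi_conj_mem_QU B hq)
      (fpfU_of_charpoly h2 hg B hB) q hq
  · intro q hq
    exact mem_commutator_of_fpf (QL m F) (levi D) (fun q hq => levi_conj_mem_QL D hq)
      (fpfL_of_charpoly h2 hg D hD) q hq

theorem det_of_mem_omega {g : OO m F} (hg : g ∈ Cfsg.Omega F (⇑(oddForm m F))) : (matO g).det = 1 := by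
  let f : OO m F →* Fˣ := (Matrix.GeneralLinearGroup.det).comp (Cfsg.isometryGroup F (⇑(oddForm m F))).subtype
  have h1 : f g = 1 := omega_le_ker (oddForm m F) f hg
  have h3 : ((f g : Fˣ) : F) = (matO g).det := rfl
  rw [h1] at h3
  exact h3.symm

theorem omega_conj {g : OO m F} (hg : g ∈ Cfsg.Omega F (⇑(oddForm m F))) (k : OO m F) :
    k * g * k⁻¹ ∈ Cfsg.Omega F (⇑(oddForm m F)) :=
  (inferInstance : (Cfsg.Omega F (⇑(oddForm m F))).Normal).conj_mem g hg k

theorem det_trInv (D : GL (Fin m) F) : (trInv D : Matrix (Fin m) (Fin m) F).det * (D : Matrix (Fin m) (Fin m) F).det = 1 := by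
  rw [coe_trInv, det_transpose, ← det_mul, ← Units.val_mul, inv_mul_cancel]
  simp

include h2 in
/-- Squares. -/
theorem isSquare_of_cell (hg : GoodPoly p κ) (hm : p.natDegree + 1 = m) {g : OO m F}
    (hgΩ : g ∈ Cfsg.Omega F (⇑(oddForm m F))) (D : GL (Fin m) F) (hD : blkD g = (D : Matrix (Fin m) (Fin m) F)) :
    IsSquare (D : Matrix (Fin m) (Fin m) F).det := by
  obtain ⟨hU, hL⟩ := QU_le_omega (m := m) h2 hg hm
  obtain ⟨u, hu, v, hv, huv⟩ := exists_cell h2 g (det_of_mem_omega hgΩ) D hD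
  have h1 : levi (trInv D) ∈ Cfsg.Omega F (⇑(oddForm m F)) := by
    have h3 : levi (trInv D) = u⁻¹ * g * v⁻¹ := by
      rw [huv]
      group
    rw [h3]
    exact Subgroup.mul_mem _ (Subgroup.mul_mem _ (Subgroup.inv_mem _ (hU hu)) hgΩ) (Subgroup.inv_mem _ (hL hv))
  have h3 := (levi_mem_omega_iff h2 (trInv D)).1 h1
  obtain ⟨r, hr⟩ := h3
  have h4 := det_trInv D
  rw [hr] at h4
  have hr0 : r ≠ 0 := by
    rintro rfl
    simp at h4
  refine ⟨r⁻¹, ?_⟩
  field_simp
  linear_combination h4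

include h2 in
/-- **Ore for the odd-dimensional orthogonal groups.** -/
theorem ore_main (hg : GoodPoly p κ) (hm : p.natDegree + 1 = m) (g : OO m F)
    (hgΩ : g ∈ Cfsg.Omega F (⇑(oddForm m F))) :
    ∃ a ∈ Cfsg.Omega F (⇑(oddForm m F)), ∃ b ∈ Cfsg.Omega F (⇑(oddForm m F)), g = a * b * a⁻¹ * b⁻¹ := by
  classical
  by_cases hg1 : g = 1
  · refine ⟨1, Subgroup.one_mem _, 1, Subgroup.one_mem _, ?_⟩
    rw [hg1]
    group
  have hm2 : 2 ≤ m := by
    have := hg.two
    omega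
  obtain ⟨hU, hL⟩ := QU_le_omega (m := m) h2 hg hm
  obtain ⟨k, hk⟩ := exists_conj_R_ne h2 hm2 g hg1 (det_of_mem_omega hgΩ)
  set g₁ := k⁻¹ * g * k with hg₁
  have hg₁Ω : g₁ ∈ Cfsg.Omega F (⇑(oddForm m F)) := by
    have := omega_conj hgΩ k⁻¹
    rwa [inv_inv] at this
  obtain ⟨h, hh, D, hD, hD1, hD2⟩ := exists_normal h2 (g := g₁) hm2 hk (fun h hh D hD =>
    isSquare_of_cell h2 hg hm (omega_conj hg₁Ω h) D hD)
  set g₂ := h * g₁ * h⁻¹ with hg₂
  have hg₂Ω : g₂ ∈ Cfsg.Omega F (⇑(oddForm m F)) := omega_conj hg₁Ω h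
  obtain ⟨u, hu, v, hv, huv⟩ := exists_cell h2 g₂ (det_of_mem_omega hg₂Ω) D hD
  -- the Levi factor
  have hA1 : (trInv D : Matrix (Fin m) (Fin m) F).det = 1 := by
    have := det_trInv D
    rwa [hD1, mul_one] at this
  have hA2 : ¬ ∃ a : F, (trInv D : Matrix (Fin m) (Fin m) F) = a • 1 := by
    rintro ⟨a, ha⟩
    apply hD2
    have h3 : (trInv D : Matrix (Fin m) (Fin m) F)ᵀ * (D : Matrix (Fin m) (Fin m) F) = 1 := by
      rw [coe_trInv, transpose_transpose, ← Units.val_mul, inv_mul_cancel]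
      rfl
    rw [ha, transpose_smul, transpose_one, smul_mul_assoc, one_mul] at h3
    have ha0 : a ≠ 0 := by
      rintro rfl
      rw [zero_smul] at h3
      haveI : Nonempty (Fin m) := ⟨⟨0, by omega⟩⟩
      have h5 := congrFun (congrFun h3 ⟨0, by omega⟩) ⟨0, by omega⟩
      simp at h5
    refine ⟨a⁻¹, ?_⟩
    rw [← h3, smul_smul, inv_mul_cancel₀ ha0, one_smul]
  obtain ⟨B, D', G, hfac, hB, hD', hG, hGdet, hBdet⟩ := exists_matrix_factor h2 hg.monic hm
    (noRoot_of_irreducible hg.irr hg.two κ) hg.rel (trInv D) hA1 hA2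
  haveI : Finite ↥(QU m F) := inferInstance
  haveI : Finite ↥(QL m F) := inferInstance
  obtain ⟨a, ha, w, hw, hcomm⟩ := exists_comm_of_cell (Cfsg.Omega F (⇑(oddForm m F))) (QU m F) (QL m F) hU hL
    (levi B) (levi D') (levi G) u v
    (fun q hq => levi_conj_mem_QU B hq) (fpfU_of_charpoly h2 hg B hB)
    (fun q hq => levi_conj_mem_QL D' hq) (fpfL_of_charpoly h2 hg D' hD')
    (by rw [← map_mul, ← map_inv, ← map_mul, hG])
    ((levi_mem_omega_iff h2 B).2 (by rw [hBdet]; exact IsSquare.one))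
    ((levi_mem_omega_iff h2 G).2 (by rw [hGdet]; exact IsSquare.one)) hu hv
  have hg₂eq : g₂ = a * w * a⁻¹ * w⁻¹ := by
    rw [huv, hfac, map_mul, map_inv, ← hcomm]
    group
  -- transport back
  set c := k * h⁻¹ with hc
  have hgc : g = c * g₂ * c⁻¹ := by
    rw [hg₂, hg₁, hc]
    group
  refine ⟨c * a * c⁻¹, omega_conj ha c, c * w * c⁻¹, omega_conj hw c, ?_⟩
  rw [hgc, hg₂eq]
  group

end Main

/-- **Every element of `Ω_{2m+1}(F)` is a commutator.** -/
theorem ore_omega_odd (h2 : (2 : F) ≠ 0) (hq : 3 ≤ Fintype.card F) (hm : 3 ≤ m) (g : OO m F)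
    (hgΩ : g ∈ Cfsg.Omega F (⇑(oddForm m F))) :
    ∃ a ∈ Cfsg.Omega F (⇑(oddForm m F)), ∃ b ∈ Cfsg.Omega F (⇑(oddForm m F)), g = a * b * a⁻¹ * b⁻¹ := by
  obtain ⟨p, κ, h1, h3, h4, h5, h6, h7, h8⟩ := exists_good_poly (F := F) hq (m - 1) (by omega)
  have hp : GoodPoly p κ := ⟨h1, h3, by omega, h5, h6, by rw [h4]; exact h7, h8⟩
  exact ore_main h2 hp (by omega) g hgΩ

end Cfsg.Agent.Lib.OreOmega
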